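import Cfsg.Agent.Rq.F

/-! Powers in the field with `q ^ 2` elements. -/

set_option autoImplicit false
open MulAction Module

namespace CF.Rq

variable {F : Type*} [Field F] [Fintype F] {σ : F →+* F} {q : ℕ}

namespace AR

theorem fix_mem (h : Fd σ q) (S : Subring F) (k : q ≤ Nat.card S) {r : F} (hr : σ r = r) :
    r ∈ S := by
  classical
  rcases k.lt_or_eq with k | k
  · rw [h.top S k]; trivial
  have e : (S : Set F) = {x | x ^ q = x} := by
    refine Set.eq_of_subset_of_ncard_le (fun x hx => ?_) ?_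
    · have := FiniteField.pow_card (K := Ff.sf S) ⟨x, hx⟩
      rw [← Nat.card_eq_fintype_card, show Nat.card (Ff.sf S) = q from k.symm] at this
      exact congrArg Subtype.val this
    · have := Geom.card_fixed_eq h.card
      exact (le_of_eq this).trans k.le
  show r ∈ (S : Set F)
  rw [e]
  exact (h.pow r).symm.trans hr

theorem gcd_le {p q : ℕ} (hp : p.Prime) (hq : 3 ≤ q) : (q ^ 2 - 1).gcd (p ^ 2) ≤ q + 1 := by
  have e : q ^ 2 - 1 = (q + 1) * (q - 1) := by
    have := Nat.sq_sub_sq q 1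
    simpa using this
  have hd := Nat.gcd_dvd_left (q ^ 2 - 1) (p ^ 2)
  obtain ⟨i, hi, ei⟩ := (Nat.dvd_prime_pow hp).1 (Nat.gcd_dvd_right (q ^ 2 - 1) (p ^ 2))
  rw [ei] at hd ⊢
  rw [e] at hd
  by_cases h1 : p ∣ q + 1
  · by_cases h2 : p ∣ q - 1
    · have : p ∣ 2 := by
        have := Nat.dvd_sub h1 h2
        rwa [show q + 1 - (q - 1) = 2 by omega] at this
      obtain rfl := (Nat.prime_dvd_prime_iff_eq hp Nat.prime_two).1 this
      exact (Nat.pow_le_pow_right two_pos hi).trans (by omega)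
    · exact Nat.le_of_dvd (by omega) (Nat.Coprime.dvd_of_dvd_mul_right
        (Nat.Coprime.pow_left i ((Nat.Prime.coprime_iff_not_dvd hp).2 h2)) hd)
  · exact (Nat.le_of_dvd (by omega) (Nat.Coprime.dvd_of_dvd_mul_left
      (Nat.Coprime.pow_left i ((Nat.Prime.coprime_iff_not_dvd hp).2 h1)) hd)).trans (by omega)

theorem card_units (h : Fd σ q) : Nat.card Fˣ = q ^ 2 - 1 := by
  rw [Nat.card_units, Nat.card_eq_fintype_card, h.card]

theorem card_pw (h : Fd σ q) {p : ℕ} (hp : p.Prime) : q - 1 ≤ Nat.card (Pw F (p ^ 2)) := by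
  have e : q ^ 2 - 1 = (q + 1) * (q - 1) := by
    have := Nat.sq_sub_sq q 1
    simpa using this
  rw [Pw, IsCyclic.card_powMonoidHom_range, card_units h]
  have := gcd_le hp h.q3
  rw [Nat.le_div_iff_mul_le (Nat.gcd_pos_of_pos_right _ (pow_pos hp.pos 2))]
  conv_rhs => rw [e, mul_comm]
  exact Nat.mul_le_mul_left _ this

theorem h90' (h : Fd σ q) {a : Fˣ} (ha : a ∈ Mu σ) : a ∈ Pw F (q - 1) := by
  obtain ⟨t, t0, e⟩ := h.h90 ha
  refine ⟨(Units.mk0 t t0)⁻¹, Units.ext ?_⟩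
  have e2 : σ t = t ^ (q - 1) * t := by
    rw [h.pow, ← pow_succ, Nat.sub_add_cancel (by have := h.q3; omega)]
  simp only [powMonoidHom_apply, Units.val_pow_eq_pow_val, Units.val_inv_eq_inv_val, Units.val_mk0,
    inv_pow]
  refine inv_eq_of_mul_eq_one_left (mul_right_cancel₀ t0 ?_)
  rw [mul_assoc, ← e2, ← e, one_mul]

end AR

open AR

theorem Fd.nd_one (h : Fd σ q) : Nd σ (Pw F 1) := by
  have all : ∀ γ : Fˣ, γ ∈ Pw F 1 := fun γ => ⟨γ, pow_one γ⟩
  constructor
  · obtain ⟨t, ht, t0, t1⟩ := h.ex_fix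
    obtain ⟨b, hb⟩ := h.norm ht
    have b0 : b ≠ 0 := by rintro rfl; exact t0 (by simpa using hb.symm)
    exact ⟨Units.mk0 b b0, all _, fun e => t1 (hb.symm.trans e)⟩
  · intro A hA r _ a ha
    by_cases r0 : r = 0
    · rw [r0, zero_mul]; exact zero_mem _
    · exact hA (Units.mk0 r r0) (all _) a ha

theorem Fd.nd_pow (h : Fd σ q) {p : ℕ} (hp : p.Prime) {τ : Fˣ} (h1 : σ τ = τ)
    (h2 : τ ^ p ^ 2 ≠ 1) : Nd σ (Pw F (p ^ 2)) := by
  constructor
  · obtain ⟨b, hb⟩ := h.norm h1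
    have b0 : b ≠ 0 := by rintro rfl; exact τ.ne_zero (by simpa using hb.symm)
    refine ⟨_, ⟨Units.mk0 b b0, rfl⟩, fun e => h2 (Units.ext ?_)⟩
    simp only [powMonoidHom_apply, Units.val_pow_eq_pow_val, Units.val_mk0, map_pow] at e
    rw [Units.val_pow_eq_pow_val, ← hb, mul_pow, e, Units.val_one]
  · intro A hA r hr
    refine fix_mem h (Ff.mlt A) ?_ hr
    let f : Option (Pw F (p ^ 2)) → Ff.mlt A := fun o =>
      o.elim 0 fun γ => ⟨γ.1, hA γ γ.2⟩
    have hf : Function.Injective f := by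
      rintro (_ | a) (_ | b) e
      · rfl
      · exact absurd (congrArg Subtype.val e).symm b.1.ne_zero
      · exact absurd (congrArg Subtype.val e) a.1.ne_zero
      · exact congrArg some (Subtype.ext (Units.ext (congrArg Subtype.val e)))
    have := Nat.card_le_card_of_injective f hf
    rw [Finite.card_option] at this
    have := card_pw h hp
    omega

theorem Fd.mu_le (h : Fd σ q) {p : ℕ} (hp : p.Prime)
    (h1 : ∀ τ : Fˣ, σ τ = τ → τ ^ p ^ 2 = 1) : Mu σ ≤ Pw F (p ^ 2) ∨ (q = 3 ∧ p = 2) := by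
  have q3 := h.q3
  have e : q ^ 2 - 1 = (q + 1) * (q - 1) := by
    have := Nat.sq_sub_sq q 1
    simpa using this
  obtain ⟨w, hw⟩ := IsCyclic.exists_ofOrder_eq_natCard (α := Fˣ)
  rw [card_units h, e] at hw
  have d : q - 1 ∣ p ^ 2 := by
    have := h1 (w ^ (q + 1)) (by
      rw [Units.val_pow_eq_pow_val, pow_succ, ← h.pow, map_mul, h.inv, mul_comm])
    rw [← pow_mul, ← orderOf_dvd_iff_pow_eq_one, hw] at this
    exact Nat.dvd_of_mul_dvd_mul_left (by omega) this
  obtain ⟨i, hi, ei⟩ := (Nat.dvd_prime_pow hp).1 d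
  interval_cases i
  · rw [pow_zero] at ei; omega
  · rw [pow_one] at ei
    by_cases p2 : p = 2
    · right; subst p2; omega
    left
    intro a ha
    have o : orderOf a ∣ q + 1 := orderOf_dvd_of_pow_eq_one (Units.ext (by
      rw [Units.val_pow_eq_pow_val, pow_succ', ← h.pow]; exact ha))
    have c : (p ^ 2).Coprime (orderOf a) := by
      refine Nat.Coprime.coprime_dvd_right o (Nat.Coprime.pow_left 2 ?_)
      rw [Nat.Prime.coprime_iff_not_dvd hp, show q + 1 = p + 2 by omega]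
      intro k
      exact p2 ((Nat.prime_dvd_prime_iff_eq hp Nat.prime_two).1 ((Nat.dvd_add_self_left).1 k))
    obtain ⟨m, hm⟩ := exists_pow_eq_self_of_coprime c
    exact ⟨a ^ m, by rw [powMonoidHom_apply, ← pow_mul, mul_comm, pow_mul, hm]⟩
  · left
    intro a ha
    rw [← ei]
    exact h90' h ha

theorem Fd.mu_le3 (h : Fd σ 3) : Mu σ ≤ Pw F 2 := fun _ ha => h90' h ha

end CF.Rq
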