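import Cfsg.Agent.Rq.BR
import Cfsg.Agent.Rq.P3
import Cfsg.Agent.Rq.L2
import Cfsg.Agent.Rq.L1

/-! Rank 3 actions of unitary groups: root elements in the stabiliser. -/

set_option autoImplicit false
open MulAction Module

namespace CF.Rq

variable {F V : Type*} [Field F] [Fintype F] [AddCommGroup V] [Module F V] {σ : F →+* F}
  {B : V →ₛₗ[σ] V →ₗ[F] F} {q n : ℕ} {e : ℕ → V} {Ω : Type*} [MulAction (GG B) Ω]

namespace BB

variable (σ n) in
/-- The eigenvalues of a diagonal map. -/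
def ev (τ : ℕ → Fˣ) (i : ℕ) : F :=
  if 2 * i + 1 < n then τ i else if 2 * i + 1 = n then 1 else (σ (τ (n - 1 - i)))⁻¹

variable (B n e) in
/-- The matrix entries. -/
def en (g : GG B) (i j : ℕ) : F := B (e (n - 1 - i)) (g.1 (e j))

variable (n) in
/-- The outer positions. -/
def Wo (i : ℕ) : Prop := i = 0 ∨ i = 1 ∨ i = n - 2 ∨ i = n - 1

variable {t c : GG B} {τ : ℕ → Fˣ} {i j m : ℕ} {ω : Ω}

omit [Fintype F]

theorem ev_ne : ev σ n τ i ≠ 0 := by
  unfold ev
  split_ifs <;> simp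

theorem dg_ev (ht : Dg B n e t τ) (hi : i < n) : t.1 (e i) = ev σ n τ i • e i := by
  unfold ev
  split_ifs with h1 h2
  · exact ((ht i).1 h1).1
  · rw [(ht i).2 h2, one_smul]
  · have := ((ht (n - 1 - i)).1 (by omega)).2
    rwa [show n - 1 - (n - 1 - i) = i by omega] at this

theorem ev_one (h : ∀ i, 2 ≤ i → τ i = 1) (hi : i < n) (w : ¬ Wo n i) : ev σ n τ i = 1 := by
  simp only [Wo, not_or] at w
  unfold ev
  split_ifs
  · rw [h i (by omega), Units.val_one]
  · rfl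
  · rw [h _ (by omega)]; simp

theorem gr (b : Fb B n e) (hi : i < n) (hj : j < n) : B (e (n - 1 - i)) (e j) = if i = j then 1 else 0 := by
  rw [b.gram _ (by omega) _ hj]
  exact if_congr (by omega) rfl rfl

variable [Fintype F] (h : Hm σ B q) (b : Fb B n e)
include b

theorem co (ht : Dg B n e t τ) (hi : i < n) (w : V) :
    B (e (n - 1 - i)) (t.1 w) = ev σ n τ i * B (e (n - 1 - i)) w := by
  refine LinearMap.congr_fun (b.ext (f := B (e (n - 1 - i)) ∘ₗ (t.1 : V →ₗ[F] V))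
    (g := ev σ n τ i • B (e (n - 1 - i))) fun j hj => ?_) w
  change B _ (t.1 _) = _ * B _ _
  rw [dg_ev ht hj, map_smul, gr b hi hj]
  split_ifs with l
  · rw [l, smul_eq_mul]
  · simp

include h

theorem eq_of {v w : V} (k : ∀ i < n, B (e (n - 1 - i)) v = B (e (n - 1 - i)) w) : v = w := by
  rw [b.sum h v, b.sum h w]
  exact Finset.sum_congr rfl fun i hi => by rw [k i (Finset.mem_range.1 hi)]

theorem tri (hc : c ∈ Uu B n e) (hi : i < n) (l : j ≤ i) : en B n e c i j = if i = j then 1 else 0 := by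
  have := (b.mem_Fl h (by omega)).1 ((b.mem_Uu h).1 hc j (by omega)) i l hi
  rwa [map_sub, gr b hi (by omega), sub_eq_zero] at this

theorem core (hω : Gd B n e ω) (tf : Tf B n e ω) : ∃ c ∈ Uu B n e, c • ω = ω ∧ en B n e c 0 1 ≠ 0 ∧
    ∀ τ, Av B n e Ω τ → τ 0 = τ 1 → ∀ i < n, ∀ j < n, ev σ n τ i ≠ ev σ n τ j → en B n e c i j = 0 := by
  have := h.finG
  have := Fact.mk (CharP.char_is_prime F (ringChar F))
  have n6 := b.n6 h
  obtain ⟨u, hu, u1, u2⟩ := hω
  have g0 := gr b (i := 0) (j := 0) (by omega) (by omega)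
  have g1 := gr b (i := 0) (j := 1) (by omega) (by omega)
  simp only [if_true, zero_ne_one, if_false] at g0 g1
  let A : Subgroup (GG B) :=
    { carrier := {a | a ∈ Tt B n e ∧ a • ω = ω ∧ ∃ s : Fˣ, a.1 (e 0) = (s : F) • e 0 ∧ a.1 (e 1) = (s : F) • e 1}
      mul_mem' := fun {x y} ⟨x1, x2, s, x3, x4⟩ ⟨y1, y2, r, y3, y4⟩ => ⟨mul_mem x1 y1, by rw [mul_smul, y2, x2],
        r * s, by simp [x3, y3, smul_smul], by simp [x4, y4, smul_smul]⟩
      one_mem' := ⟨one_mem _, one_smul _ _, 1, by simp, by simp⟩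
      inv_mem' := fun {x} ⟨x1, x2, s, x3, x4⟩ => ⟨inv_mem x1, inv_smul_eq_iff.2 x2.symm, s⁻¹,
        x.1.symm_apply_eq.2 (by simp [x3]), x.1.symm_apply_eq.2 (by simp [x4])⟩ }
  refine ((b.sp h).cen (b.pgroup h) not_dvd_pred (fun t => b.T_pow) ω (A := A) (fun _ k => k.1) (fun _ k => k.2.1)
    (fun g => en B n e g 0 1) (fun x hx y hy => ?_) (fun a ha x hx => ?_) hu u1).imp fun c ⟨hc, c1, c2, c3⟩ =>
      ⟨hc, c1, fun k => u2 ?_, fun τ ⟨t, ht, tw⟩ k i hi j hj l => ?_⟩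
  · change B _ (x.1 (y.1 _)) = _
    rw [(b.U_zero h hy).2, map_add, map_smul, (b.U_zero h hx).1, map_add, map_smul, g0, smul_eq_mul, mul_one]
    rfl
  · obtain ⟨-, -, s, a0, a1⟩ := ha
    change B _ (a.1 (x.1 (a.1.symm _))) = _
    rw [a.1.symm_apply_eq.2 (show e 1 = a.1 ((s : F)⁻¹ • e 1) by simp [a1]), map_smul, (b.U_zero h hx).2]
    simp only [map_smul, map_add, a0, a1, g0, g1, smul_eq_mul]
    change _ = B (e (n - 1)) (x.1 (e 1))
    field_simp
    rw [zero_add]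
  · rw [(b.U_zero h hu).2, show B (e (n - 1)) (u.1 (e 1)) = 0 from c2.symm.trans k, zero_smul, add_zero]
  have := congrArg (fun g : GG B => B (e (n - 1 - i)) (g.1 (e j))) (c3 t ⟨ht.mem, tf t ht.mem (tw ω), τ 0,
    ((ht 0).1 (by omega)).1, k ▸ ((ht 1).1 (by omega)).1⟩)
  simp only [Subgroup.coe_mul, LinearEquiv.mul_apply] at this
  rw [co b ht hi, dg_ev ht hj, map_smul, map_smul, smul_eq_mul] at this
  exact (mul_eq_mul_right_iff.1 this).resolve_left l

theorem vj (ht : Dg B n e t τ) (hj : j < n) (hm : m < n) (cm : c.1 (e m) = e m)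
    (k : ∀ i < n, i ≠ m → en B n e c i j = 0 ∨ ev σ n τ i = ev σ n τ j) : (c⁻¹ * (t * c * t⁻¹)).1 (e j) =
      e j + (en B n e c m j * (ev σ n τ m / ev σ n τ j - 1)) • e m := by
  change c.1.symm (t.1 (c.1 (t.1.symm _))) = _
  rw [c.1.symm_apply_eq, map_add, map_smul, cm,
    t.1.symm_apply_eq.2 (show e j = t.1 ((ev σ n τ j)⁻¹ • e j) by simp [dg_ev ht hj, ev_ne])]
  refine eq_of h b fun i hi => ?_
  rw [co b ht hi, map_smul, map_smul, map_add, map_smul, gr b hi hm]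
  change _ * (_ * en B n e c i j) = en B n e c i j + _ * _
  have := ev_ne (σ := σ) (n := n) (τ := τ) (i := j)
  split_ifs with l
  · rw [l]; field_simp; ring
  · rcases k i hi l with k | k <;> rw [k] <;> field_simp <;> ring

theorem sg {v : GG B} {a a' : F} (v0 : v.1 (e 0) = e 0) (v1 : v.1 (e 1) = e 1 + a • e 0)
    (v2 : v.1 (e (n - 2)) = e (n - 2) + a' • e 0) (v3 : ∀ j < n, ¬ Wo n j → v.1 (e j) = e j) :
    (∀ w, v.1 w = w + (Pm B (e 0) (σ a • e (n - 2) + σ a' • e 1) + en B n e v 0 (n - 1) • E B (e 0) (e 0)) w) ∧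
    en B n e v 0 (n - 1) + σ (en B n e v 0 (n - 1)) =
      -B (σ a • e (n - 2) + σ a' • e 1) (σ a • e (n - 2) + σ a' • e 1) := by
  obtain ⟨k, rfl⟩ : ∃ k, n = k + 6 := ⟨n - 6, by have := b.n6 h; omega⟩
  have g := b.gram
  have iso := v.2.1
  change v.1 (e (k + 4)) = e (k + 4) + _ at v2
  have l : v.1 (e (k + 5)) = e (k + 5) - (σ a • e (k + 4) + σ a' • e 1) + en B (k + 6) e v 0 (k + 5) • e 0 := by
    have i0 := iso (e 0) (e (k + 5))
    have i1 := iso (e 1) (e (k + 5))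
    have i2 := iso (e (k + 4)) (e (k + 5))
    rw [v0, g _ (by omega) _ (by omega), if_pos (by omega)] at i0
    rw [v1] at i1
    rw [v2] at i2
    simp (disch := omega) only [map_add, map_smulₛₗ, LinearMap.add_apply, LinearMap.smul_apply, i0, g, if_pos,
      if_neg, smul_eq_mul, mul_one] at i1 i2
    refine eq_of h b fun i hi => ?_
    obtain ⟨j, hj, rfl⟩ : ∃ j < k + 6, i = k + 5 - j := ⟨k + 5 - i, by omega, by omega⟩
    rw [show k + 6 - 1 - (k + 5 - j) = j by omega]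
    simp only [map_add, map_sub, map_smul, smul_eq_mul]
    by_cases w : Wo (k + 6) j
    · rcases w with rfl | rfl | (rfl : j = k + 4) | (rfl : j = k + 5) <;>
        simp (disch := omega) only [g, if_pos, if_neg, if_true, mul_zero, mul_one]
      · linear_combination i0
      · linear_combination i1
      · linear_combination i2
      · simp [en]
    · rw [← v3 j hj w, iso, v3 j hj w]
      simp only [Wo, not_or] at w
      simp (disch := omega) [g, if_neg]
  refine ⟨fun w => LinearMap.congr_fun (b.ext (f := (v.1 : V →ₗ[F] V)) (g := LinearMap.id + _) fun j hj => ?_) w, ?_⟩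
  · change v.1 (e j) = e j + _
    simp only [LinearMap.add_apply, LinearMap.smul_apply, Pm_apply, E_apply, map_add, map_smulₛₗ, h.toFd.inv,
      smul_eq_mul, show k + 6 - 2 = k + 4 from rfl, show k + 6 - 1 = k + 5 from rfl]
    by_cases w : Wo (k + 6) j
    · rcases w with rfl | rfl | (rfl : j = k + 4) | (rfl : j = k + 5) <;>
        simp (disch := omega) only [g, if_pos, if_neg]
      · simp [v0]
      · simp [v1]
      · simp [v2]
      · rw [l]; module
    · rw [v3 j hj w]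
      simp only [Wo, not_or] at w
      simp (disch := omega) [g, if_neg]
  · have := iso (e (k + 5)) (e (k + 5))
    rw [l] at this
    change en B (k + 6) e v 0 (k + 5) + σ (en B (k + 6) e v 0 (k + 5)) =
      -B (σ a • e (k + 4) + σ a' • e 1) (σ a • e (k + 4) + σ a' • e 1)
    simp (disch := omega) only [map_add, map_sub, map_smulₛₗ, LinearMap.add_apply, LinearMap.sub_apply,
      LinearMap.smul_apply, g, if_pos, if_neg, if_true, smul_eq_mul, RingHom.id_apply] at this ⊢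
    linear_combination this

theorem cm (hc : c ∈ Uu B n e) (c1 : en B n e c 0 1 ≠ 0)
    (sp : ∀ i < n, ∀ j < n, ¬ (Wo n i ↔ Wo n j) → en B n e c i j = 0) (ht : Dg B n e t τ) (t0 : τ 0 ≠ τ 1)
    (t1 : ∀ i, 2 ≤ i → τ i = 1) (k : en B n e c 1 (n - 2) = 0 ∨ ev σ n τ 1 = ev σ n τ (n - 2)) :
    ∃ a : F, a ≠ 0 ∧ (c⁻¹ * (t * c * t⁻¹)).1 (e 0) = e 0 ∧ (c⁻¹ * (t * c * t⁻¹)).1 (e 1) = e 1 + a • e 0 ∧
      (c⁻¹ * (t * c * t⁻¹)).1 (e (n - 2)) =
        e (n - 2) + (en B n e c 0 (n - 2) * (ev σ n τ 0 / ev σ n τ (n - 2) - 1)) • e 0 ∧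
      ∀ j < n, ¬ Wo n j → (c⁻¹ * (t * c * t⁻¹)).1 (e j) = e j := by
  have n6 := b.n6 h
  have z := fun j (hj : j < n) => vj h b ht hj (m := 0) (by omega) (b.U_zero h hc).1
  have tr : ∀ i < n, ∀ j < i, en B n e c i j = 0 := fun i hi j l => (tri h b hc hi l.le).trans (if_neg l.ne')
  refine ⟨_, ?_, ?_, z 1 (by omega) fun i hi l => ?_, z _ (by omega) fun i hi l => ?_, fun j hj w => ?_⟩
  · refine mul_ne_zero c1 (sub_ne_zero.2 fun l => t0 (Units.ext ?_))
    rw [div_eq_one_iff_eq ev_ne, ev, ev, if_pos (by omega), if_pos (by omega)] at l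
    exact l
  · rw [z 0 (by omega) fun i hi l => .inl (tr i hi 0 (by omega)), div_self ev_ne]
    simp
  · exact (eq_or_ne i 1).symm.imp (fun _ => tr i hi 1 (by omega)) fun l => by rw [l]
  · by_cases w : Wo n i
    · rcases w with w | rfl | rfl | rfl
      exacts [absurd w l, k, .inr rfl, .inl (tr _ hi _ (by omega))]
    · exact .inl (sp i hi _ (by omega) fun l => w (l.2 (.inr (.inr (.inl rfl)))))
  · rw [z j hj fun i hi _ => ?_, sp 0 (by omega) j hj fun l => w (l.1 (.inl rfl))]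
    · simp
    by_cases w' : Wo n i
    · exact .inl (sp i hi j hj fun l => w (l.1 w'))
    · exact .inr (by rw [ev_one t1 hi w', ev_one t1 hj w])

theorem li {a a' : F} (ha : a ≠ 0) (x y : F) (k : x • e 0 + y • (σ a • e (n - 2) + σ a' • e 1) = 0) :
    x = 0 ∧ y = 0 := by
  have n6 := b.n6 h
  have k0 := congrArg (B (e (n - 1))) k
  have k1 := congrArg (B (e 1)) k
  simp (disch := omega) [b.gram, if_pos, if_neg, ha] at k0 k1
  exact ⟨k0, k1⟩

omit h b [Fintype F] in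
theorem fx (c1 : c • ω = ω) (t1 : t • ω = ω) : (c⁻¹ * (t * c * t⁻¹)).1 ∈ Kw B ω :=
  ⟨_, mul_mem (inv_mem (mem_stabilizer_iff.2 c1)) (mul_mem (mul_mem (mem_stabilizer_iff.2 t1) c1)
    (inv_mem (mem_stabilizer_iff.2 t1))), rfl⟩

end BB

open BB

theorem Fb.bb (h : Hm σ B q) (b : Fb B n e) (sd : Sd B n e Ω) {ω : Ω} (hω : Gd B n e ω)
    (tf : Tf B n e ω) : ∃ x y, Ti2 B x y ∧ In (Kw B ω) (Pm B x y) := by
  have n6 := b.n6 h
  obtain ⟨c, hc, c1, c2, c3⟩ := core h b hω tf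
  obtain ⟨τ, a1, a2, a3⟩ := sd.s1
  have e0 : ∀ i < 2, ev σ n τ i = τ 0 := fun i hi => by
    rw [ev, if_pos (by omega)]
    interval_cases i
    exacts [rfl, by rw [a2]]
  have e1 : ∀ i < n, n - 2 ≤ i → ev σ n τ i = (σ (τ 0))⁻¹ := fun i hi l => by
    rw [ev, if_neg (by omega), if_neg (by omega)]
    rcases (by omega : n - 1 - i = 0 ∨ n - 1 - i = 1) with k | k <;> rw [k]
    rw [a2]
  have ne : (τ 0 : F) ≠ (σ (τ 0))⁻¹ := fun k => a3 ((mul_eq_one_iff_eq_inv₀ (by simp)).2 k)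
  have up : ∀ i < 2, ∀ j < n, n - 2 ≤ j → en B n e c i j = 0 := fun i hi j hj l =>
    c3 τ a1 a2 i (by omega) j hj (by rw [e0 i hi, e1 j hj l]; exact ne)
  have sp' : ∀ i < n, ∀ j < n, Wo n i → ¬ Wo n j →
      ∃ τ, Av B n e Ω τ ∧ τ 0 = τ 1 ∧ ev σ n τ i ≠ ev σ n τ j := fun i hi j hj w w' => by
    simp only [Wo, not_or] at w w'
    rcases eq_or_ne (2 * j + 1) n with k | k
    · refine ⟨τ, a1, a2, fun l => a3 ?_⟩
      rw [show ev σ n τ j = 1 by rw [ev, if_neg k.not_lt, if_pos k]] at l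
      rcases Nat.lt_or_ge i 2 with m | m
      · rw [← e0 i m, l]; simp
      · rw [e1 i hi (by omega), inv_eq_one] at l
        rw [l, ← h.toFd.inv (τ 0), l]; simp
    obtain ⟨ρ, r1, r2, r3, r4⟩ := sd.s2 (min j (n - 1 - j)) (by omega) (by omega)
    refine ⟨ρ, r1, r2.trans r3.symm, fun l => r4 (Units.ext ?_)⟩
    have : ev σ n ρ i = 1 := by
      unfold ev
      rcases w with rfl | rfl | rfl | rfl
      · rw [if_pos (by omega), r2, Units.val_one]
      · rw [if_pos (by omega), r3, Units.val_one]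
      · rw [if_neg (by omega), if_neg (by omega), show n - 1 - (n - 2) = 1 by omega, r3]; simp
      · rw [if_neg (by omega), if_neg (by omega), Nat.sub_self, r2]; simp
    rw [this, ev] at l
    split_ifs at l with m
    · rw [min_eq_left (by omega), ← l, Units.val_one]
    · rw [min_eq_right (by omega), ← h.toFd.inv (ρ _), ← inv_inv (σ (ρ _)), ← l]; simp
  have sp : ∀ i < n, ∀ j < n, ¬ (Wo n i ↔ Wo n j) → en B n e c i j = 0 := fun i hi j hj k => by
    by_cases w : Wo n i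
    · obtain ⟨ρ, r1, r2, r3⟩ := sp' i hi j hj w fun l => k (iff_of_true w l)
      exact c3 ρ r1 r2 i hi j hj r3
    · obtain ⟨ρ, r1, r2, r3⟩ := sp' j hj i hi (by_contra fun l => k (iff_of_false w l)) w
      exact c3 ρ r1 r2 i hi j hj r3.symm
  obtain ⟨ρ, ⟨t, ht, tw⟩, r1, r2⟩ := sd.s3
  obtain ⟨a, a0, v0, v1, v2, v3⟩ := cm h b hc c2 sp ht r1 r2 (.inl (up 1 one_lt_two _ (by omega) le_rfl))
  rw [up 0 two_pos _ (by omega) le_rfl, zero_mul] at v2
  have s := (sg h b v0 v1 v2 v3).1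
  have lo : ∀ i < n - 2, ∀ j < n, n - 2 ≤ j → en B n e c i j = 0 := fun i hi j hj l => by
    rcases Nat.lt_or_ge i 2 with m | m
    · exact up i m j hj l
    · exact sp i (by omega) j hj (by simp only [Wo]; omega)
  have z : en B n e (c⁻¹ * (t * c * t⁻¹)) 0 (n - 1) = 0 := by
    rw [en, vj h b ht (j := n - 1) (m := n - 2) (by omega) (by omega) (eq_of h b fun i hi => ?_) fun i hi l => ?_,
      map_add, map_smul, gr b (by omega) (by omega), gr b (by omega) (by omega), if_neg (by omega), if_neg (by omega)]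
    · simp
    · rw [gr b hi (by omega)]
      rcases Nat.lt_or_ge i (n - 2) with m | m
      · rw [if_neg m.ne]
        exact lo i m _ (by omega) le_rfl
      · exact tri h b hc hi m
    · rcases eq_or_ne i (n - 1) with m | m
      · exact .inr (by rw [m])
      · exact .inl (lo i (by omega) _ (by omega) (by omega))
  rw [z, zero_smul, add_zero] at s
  refine ⟨_, _, ⟨?_, ?_, ?_, li h b a0⟩, _, fx c1 (tf t ht.mem (tw ω)), s⟩ <;>
    simp (disch := omega) [b.gram, if_neg]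

theorem Fb.bq (h : Hm σ B q) (b : Fb B n e) (av : Av3 B n e Ω (Mu σ)) {ω : Ω} (hω : Gd B n e ω)
    (tf : Tf B n e ω) : HQ B (Kw B ω) := by
  have n6 := b.n6 h
  obtain ⟨c, hc, c1, c2, c3⟩ := core h b hω tf
  obtain ⟨γ, hγ, g2, g3⟩ := h.toFd.ex_mu
  have mu : ∀ {x : Fˣ}, x ∈ Mu σ → (σ x)⁻¹ = x := fun k => inv_eq_of_mul_eq_one_left k
  have vm : ∀ {x y z : Fˣ}, x ∈ Mu σ → y ∈ Mu σ → z ∈ Mu σ → ∀ i < n,
      ev σ n (v3 x y z) i = v3 x y z (min i (n - 1 - i)) := fun {x y z} hx hy hz i hi => by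
    unfold ev
    split_ifs
    · rw [min_eq_left (by omega)]
    · rw [v3, if_neg (by omega), if_neg (by omega), if_neg (by omega), Units.val_one]
    · rw [min_eq_right (by omega)]
      refine mu ?_
      unfold v3
      split_ifs
      exacts [hx, hy, hz, one_mem _]
  have m2 := inv_mem (mul_mem hγ hγ)
  have sp' : ∀ i < n, ∀ j < n, Wo n i → ¬ Wo n j →
      ev σ n (v3 γ γ (γ * γ)⁻¹) i ≠ ev σ n (v3 γ γ (γ * γ)⁻¹) j := fun i hi j hj w w' l => by
    simp only [Wo, not_or] at w w'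
    rw [vm hγ hγ m2 i hi, vm hγ hγ m2 j hj, Units.val_inj] at l
    have : v3 γ γ (γ * γ)⁻¹ (min i (n - 1 - i)) = γ := by
      unfold v3
      split_ifs <;> first | rfl | omega
    rw [this, v3, if_neg (by omega), if_neg (by omega)] at l
    split_ifs at l
    · exact g3 (by rw [pow_three, ← eq_inv_iff_mul_eq_one]; exact l)
    · exact g2 (by rw [l, one_pow])
  have a1 := av γ hγ γ hγ _ m2 (mul_inv_cancel _)
  have sp : ∀ i < n, ∀ j < n, ¬ (Wo n i ↔ Wo n j) → en B n e c i j = 0 := fun i hi j hj k => by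
    refine c3 _ a1 rfl i hi j hj ?_
    by_cases w : Wo n i
    · exact sp' i hi j hj w fun l => k (iff_of_true w l)
    · exact (sp' j hj i hi (by_contra fun l => k (iff_of_false w l)) w).symm
  obtain ⟨t, ht, tw⟩ := av γ hγ _ (inv_mem hγ) 1 (one_mem _) (by simp)
  obtain ⟨a, a0, v0, v1, v2, v3⟩ := cm h b hc c2 sp ht
    (fun l => g2 (by rw [pow_two, ← eq_inv_iff_mul_eq_one]; exact l))
    (fun i hi => by unfold v3; split_ifs <;> first | rfl | omega)
    (.inr (by rw [vm hγ (inv_mem hγ) (one_mem _) _ (by omega), vm hγ (inv_mem hγ) (one_mem _) _ (by omega)]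
              congr 2; omega))
  obtain ⟨s1, s2⟩ := sg h b v0 v1 v2 v3
  refine ⟨_, _, _, ?_, ?_, li h b a0, s2, ⟨_, fx c1 (tf t ht.mem (tw ω)), s1⟩, fun x hx => ?_⟩
  · simp (disch := omega) [b.gram, if_neg]
  · simp (disch := omega) [b.gram, if_neg]
  obtain ⟨g, hg, gw⟩ := av x hx 1 (one_mem _) _ (inv_mem hx) (by simp)
  have k := (hg 1).1 (by omega)
  refine ⟨g.1, ⟨g, tf g hg.mem (gw ω), rfl⟩, ((hg 0).1 (by omega)).1, ?_⟩
  rw [map_add, map_smul, map_smul, k.1, show n - 2 = n - 1 - 1 from rfl, k.2]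
  simp [Rq.v3]

end CF.Rq
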