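import Cfsg.Agent.Rq.F

/-! The standard hermitian space has a basis with antidiagonal Gram matrix. -/

set_option autoImplicit false
open MulAction Module

namespace CF.Rq

theorem Z.fd {F : Type*} [Field F] [Fintype F] {q : ℕ} (hq : 3 ≤ q)
    (hF : Fintype.card F = q ^ 2) : ∃ σ : F →+* F, Fd σ q := by
  obtain ⟨p, hp⟩ := CharP.exists F
  obtain ⟨k, pp, hk⟩ := FiniteField.card F p
  have := Fact.mk pp
  obtain ⟨j, -, rfl⟩ := (Nat.dvd_prime_pow pp).mp
    (show q ∣ p ^ (k : ℕ) by rw [← hk, hF]; exact dvd_pow_self q two_ne_zero)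
  exact ⟨iterateFrobenius F p j, hF, fun x => iterateFrobenius_def .., hq⟩

theorem Z.span {F V : Type*} [Field F] [AddCommGroup V] [Module F V] [FiniteDimensional F V]
    {σ : F →+* F} {B : V →ₛₗ[σ] V →ₗ[F] F} {n : ℕ} {e : ℕ → V}
    (gram : ∀ i < n, ∀ j < n, B (e i) (e j) = if i + j + 1 = n then 1 else 0)
    (dim : finrank F V = n) : Submodule.span F (e '' Set.Iio n) = ⊤ := by
  have li : LinearIndependent F fun i : Fin n => e i := by
    rw [Fintype.linearIndependent_iff]
    intro c hc j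
    have h1 := congrArg (B (e (n - 1 - j))) hc
    have hj := j.2
    rw [map_sum, map_zero, Finset.sum_eq_single j (fun i _ hij => by
      rw [map_smul, gram _ (by omega) _ i.2, if_neg (fun h => hij (Fin.ext (by omega))), smul_zero])
      (by simp), map_smul, gram _ (by omega) _ hj, if_pos (by omega)] at h1
    simpa using h1
  rw [← li.span_eq_top_of_card_eq_finrank' (by simp [dim])]
  congr 1
  ext v
  exact ⟨fun ⟨i, hi, h⟩ => ⟨⟨i, hi⟩, h⟩, fun ⟨i, h⟩ => ⟨i, i.2, h⟩⟩

theorem exists_std {F : Type*} [Field F] [Fintype F] (n q : ℕ) (hn : 6 ≤ n) (hq : 3 ≤ q)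
    (hF : Fintype.card F = q ^ 2) : ∃ (σ : F →+* F) (B : (Fin n → F) →ₛₗ[σ] (Fin n → F) →ₗ[F] F)
      (e : ℕ → Fin n → F), Hm σ B q ∧ Fb B n e ∧ ∀ u v, B u v = ∑ i, v i * u i ^ q := by
  obtain ⟨σ, h⟩ := Z.fd hq hF
  let B : (Fin n → F) →ₛₗ[σ] (Fin n → F) →ₗ[F] F :=
    LinearMap.mk₂'ₛₗ σ (RingHom.id F) (fun u v => ∑ i, v i * σ (u i))
      (fun a b v => by simp [mul_add, Finset.sum_add_distrib])
      (fun c a v => by simp [Finset.mul_sum, mul_left_comm])
      (fun a b v => by simp [add_mul, Finset.sum_add_distrib])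
      (fun c a v => by simp [Finset.mul_sum, mul_assoc])
  have hB : ∀ u v, B u v = ∑ i, v i * σ (u i) := fun _ _ => rfl
  let s : ℕ → Fin n → F := fun i j => if (j : ℕ) = i then 1 else 0
  have Bs : ∀ (i : ℕ) (hi : i < n) (u : Fin n → F), B u (s i) = σ (u ⟨i, hi⟩) := fun i hi u => by
    rw [hB, Finset.sum_eq_single ⟨i, hi⟩ (fun j _ hj => by
      simp only [s]; rw [if_neg fun e => hj (Fin.ext e), zero_mul]) (by simp)]
    simp [s]
  have Bss : ∀ i, ∀ j < n, B (s i) (s j) = if j = i then 1 else 0 := fun i j hj => by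
    rw [Bs j hj]; simp only [s]; split_ifs <;> simp
  obtain ⟨ε, hε⟩ := h.norm (r := -1) (by simp)
  obtain ⟨γ, hγ, g2, -⟩ := h.ex_mu
  have hγ' : (γ : F) * σ γ = 1 := hγ
  have g1 : (1 : F) - γ ≠ 0 := fun e => g2 (by
    have : γ = 1 := Units.ext (sub_eq_zero.mp e).symm
    rw [this, one_pow])
  obtain ⟨la, hla⟩ : ∃ la : F, la * (1 - γ) = 1 := ⟨_, inv_mul_cancel₀ g1⟩
  have hla' : σ la * (1 - σ γ) = 1 := by simpa using congrArg σ hla
  let a : ℕ → F := fun i => if 2 * i + 1 ≤ n then 1 else la * (γ * ε)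
  let b : ℕ → F := fun i => if 2 * i + 1 < n then ε else if 2 * i + 1 = n then 0 else la
  let e : ℕ → Fin n → F := fun i => a i • s i + b i • s (n - 1 - i)
  have gram : ∀ i < n, ∀ j < n, B (e i) (e j) = if i + j + 1 = n then 1 else 0 := by
    intro i hi j hj
    have e1 : B (e i) (e j) = σ (a i) * a j * (if j = i then 1 else 0) +
        σ (b i) * a j * (if j = n - 1 - i then 1 else 0) +
        σ (a i) * b j * (if n - 1 - j = i then 1 else 0) +
        σ (b i) * b j * (if n - 1 - j = n - 1 - i then 1 else 0) := by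
      simp only [e, map_add, map_smul, LinearMap.map_smulₛₗ₂, LinearMap.add_apply, smul_eq_mul,
        Bss _ j hj, Bss _ (n - 1 - j) (by omega)]
      ring
    have lo : ∀ k, 2 * k + 1 < n → a k = 1 ∧ b k = ε := fun k hk =>
      ⟨if_pos hk.le, if_pos hk⟩
    have mi : ∀ k, 2 * k + 1 = n → a k = 1 ∧ b k = 0 := fun k hk =>
      ⟨if_pos hk.le, (if_neg hk.not_lt).trans (if_pos hk)⟩
    have up : ∀ k, n < 2 * k + 1 → a k = la * (γ * ε) ∧ b k = la := fun k hk =>
      ⟨if_neg hk.not_ge, (if_neg hk.not_gt).trans (if_neg hk.ne')⟩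
    rw [e1]
    by_cases h1 : j = i
    · subst h1
      rcases lt_trichotomy (2 * j + 1) n with hc | hc | hc
      · rw [if_pos rfl, if_neg (by omega), if_neg (by omega), if_pos rfl, if_neg (by omega),
          (lo j hc).1, (lo j hc).2, map_one]
        linear_combination hε
      · rw [if_pos rfl, if_pos (by omega), if_pos (by omega), if_pos rfl, if_pos (by omega),
          (mi j hc).1, (mi j hc).2]
        simp
      · rw [if_pos rfl, if_neg (by omega), if_neg (by omega), if_pos rfl, if_neg (by omega),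
          (up j hc).1, (up j hc).2, map_mul, map_mul]
        linear_combination (σ la * la * (γ * σ γ)) * hε - σ la * la * hγ'
    by_cases h2 : i + j + 1 = n
    · rw [if_neg h1, if_pos (by omega), if_pos (by omega), if_neg (by omega), if_pos h2]
      rcases lt_or_gt_of_ne h1 with hc | hc
      · rw [(lo j (by omega)).1, (lo j (by omega)).2, (up i (by omega)).1, (up i (by omega)).2,
          map_mul, map_mul]
        linear_combination hla' + σ la * σ γ * hε
      · rw [(lo i (by omega)).1, (lo i (by omega)).2, (up j (by omega)).1, (up j (by omega)).2,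
          map_one]
        linear_combination hla + la * γ * hε
    · rw [if_neg h1, if_neg (by omega), if_neg (by omega), if_neg (by omega), if_neg h2]
      simp
  refine ⟨σ, B, e, ⟨h, fun x y => ?_, fun x hx => ?_, inferInstance, by simpa using hn⟩,
    ⟨gram, Z.span gram (by simp), by simp⟩, fun u v => by simp only [hB, h.pow]⟩
  · simp only [hB, map_sum, map_mul, h.inv, mul_comm]
  · funext i
    have := hx (s i)
    rw [Bs i i.2] at this
    simpa using this

end CF.Rq
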