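import Cfsg.Agent.Rq.Main
import Cfsg.Agent.Rq.Z
import Cfsg.Prelude.Def_Classical

/-! Transfer to the matrix model. -/

set_option autoImplicit false
open MulAction Module

namespace CF.Rq

theorem transfer {G H X : Type*} [Group G] [Group H] [MulAction G X] [Finite X] (φ : H →* G)
    (hφ : Function.Surjective φ) (pr : IsPreprimitive G X) (x : X)
    (h3 : Nat.card (orbitRel.Quotient (stabilizer G x) X) = 3) :
    letI := MulAction.compHom X φ
    R3 H X ∧ IsPreprimitive H X := by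
  let _ := MulAction.compHom X φ
  have pr' : IsPreprimitive H X :=
    (isPreprimitive_congr (φ := φ) (f := (⟨id, fun _ _ => rfl⟩ : X →ₑ[φ] X)) hφ
      Function.bijective_id).2 pr
  refine ⟨⟨inferInstance, pr'.toIsPretransitive, x, ?_⟩, pr'⟩
  rw [← h3]
  refine Nat.card_congr (Quotient.congr (Equiv.refl X) fun a b => ?_)
  simp only [orbitRel_apply, Equiv.refl_apply]
  constructor
  · rintro ⟨⟨k, hk⟩, rfl⟩
    exact ⟨⟨φ k, hk⟩, rfl⟩
  · rintro ⟨⟨k, hk⟩, rfl⟩
    obtain ⟨k, rfl⟩ := hφ k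
    exact ⟨⟨k, hk⟩, rfl⟩

theorem exists_iso {F : Type*} [Field F] {n q : ℕ} {σ : F →+* F}
    {B : (Fin n → F) →ₛₗ[σ] (Fin n → F) →ₗ[F] F} (hB : ∀ u v, B u v = ∑ i, v i * u i ^ q) :
    Nonempty (GG B ≃* Cfsg.SU n F q) := by
  let ψ : Cfsg.SU n F q →* GG B :=
    { toFun := fun g => ⟨Matrix.SpecialLinearGroup.toLin' g.1, fun u v => by
          rw [hB, hB]; exact g.2 v u, by
          rw [Matrix.SpecialLinearGroup.toLin'_to_linearMap, LinearMap.det_toLin', g.1.2]⟩
      map_one' := Subtype.ext (map_one _)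
      map_mul' := fun a b => Subtype.ext (map_mul _ _ _) }
  refine ⟨(MulEquiv.ofBijective ψ ⟨fun a b e => Subtype.ext
    (Matrix.SpecialLinearGroup.toLin'_injective (congrArg Subtype.val e)), fun g => ?_⟩).symm⟩
  refine ⟨⟨⟨LinearMap.toMatrix' (g.1 : (Fin n → F) →ₗ[F] (Fin n → F)), by
    rw [LinearMap.det_toMatrix', g.2.2]⟩, fun u v => ?_⟩, ?_⟩
  · have := g.2.1 v u
    rw [hB, hB] at this
    change Cfsg.hermForm n F q ((LinearMap.toMatrix' (g.1 : (Fin n → F) →ₗ[F] (Fin n → F))).mulVec u)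
      ((LinearMap.toMatrix' (g.1 : (Fin n → F) →ₗ[F] (Fin n → F))).mulVec v) = _
    rw [LinearMap.toMatrix'_mulVec, LinearMap.toMatrix'_mulVec]
    exact this
  · ext v i
    change (LinearMap.toMatrix' (g.1 : (Fin n → F) →ₗ[F] (Fin n → F))).mulVec v i = _
    rw [LinearMap.toMatrix'_mulVec]
    rfl

end CF.Rq

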