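import Cfsg.Agent.Rq.L1
import Cfsg.Agent.Rq.F

/-! Closed sets of full points. -/

set_option autoImplicit false
open MulAction Module

namespace CF.Rq

variable {F V : Type*} [Field F] [Fintype F] [AddCommGroup V] [Module F V] {σ : F →+* F}
  {B : V →ₛₗ[σ] V →ₗ[F] F} {q : ℕ} {K : Subgroup (V ≃ₗ[F] V)}

namespace G1

/-- zero or full -/
def F0 (B : V →ₛₗ[σ] V →ₗ[F] F) (K : Subgroup (V ≃ₗ[F] V)) (v : V) : Prop := v = 0 ∨ Full B K v

/-- all isotropic vectors over `w` are full -/
def Gd (B : V →ₛₗ[σ] V →ₗ[F] F) (K : Subgroup (V ≃ₗ[F] V)) (x y w : V) : Prop :=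
  ∀ a b : F, σ a * b + a * σ b = -B w w → F0 B K (a • x + b • y + w)

variable (h : Hm σ B q) (hK : K ≤ SU B) (lc : LC B K)
include h

theorem F0.smul {v : V} (hv : F0 B K v) (a : F) : F0 B K (a • v) := by
  rcases hv with rfl | hv
  · exact .inl (smul_zero _)
  rcases eq_or_ne a 0 with rfl | ha
  · exact .inl (zero_smul _ _)
  · exact .inr (hv.smul h ha)

include lc in
theorem F0.add {u v : V} (hu : F0 B K u) (hv : F0 B K v) (e : B u v = 0) : F0 B K (u + v) := by
  rcases hu with rfl | hu
  · rwa [zero_add]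
  rcases hv with rfl | hv
  · rw [add_zero]; exact .inr hu
  by_cases li : ∀ a b : F, a • u + b • v = 0 → a = 0 ∧ b = 0
  · exact .inr (lc u v ⟨hu.2.1, e, hv.2.1, li⟩ hu hv)
  push Not at li
  obtain ⟨a, b, h1, h2⟩ := li
  have hb : b ≠ 0 := by
    rintro rfl
    rw [zero_smul, add_zero, smul_eq_zero, or_iff_left hu.1] at h1
    exact h2 h1 rfl
  have : u + v = (1 - a / b) • u := by
    refine smul_right_injective V hb ?_
    show b • (u + v) = b • (1 - a / b) • u
    rw [smul_smul, mul_sub, mul_div_cancel₀ _ hb]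
    linear_combination (norm := module) h1
  rw [this]
  exact F0.smul h (.inr hu) _

omit h [Fintype F] in
include hK in
theorem F0.mv {x v : V} (hx : Full B K x) (hv : F0 B K v) {c : F} (hc : σ c = -c) :
    F0 B K (v + (c * B x v) • x) := by
  rcases hv with rfl | hv
  · exact .inl (by simp)
  obtain ⟨k, hk, e⟩ := hx.2.2 c hc
  have := hv.map hK hk
  rw [e, LinearMap.smul_apply, E_apply, smul_smul] at this
  exact .inr this

variable {x y w : V} (hx : Full B K x) (hy : Full B K y) (e : B x y = 1)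
include hK hx e

theorem mvA (h1 : B x w = 0) {a a' b : F} (hb : b ≠ 0) (hv : F0 B K (a • x + b • y + w))
    (ht : σ a' * b + a' * σ b = σ a * b + a * σ b) : F0 B K (a' • x + b • y + w) := by
  have hb' : σ b ≠ 0 := (map_ne_zero σ).2 hb
  have := hv.mv hK hx (c := (a' - a) / b) (by
    rw [map_div₀, map_sub]; field_simp; linear_combination ht)
  simp only [map_add, map_smul, hx.2.1, e, h1, smul_eq_mul, mul_zero, mul_one, zero_add, add_zero,
    div_mul_cancel₀ _ hb] at this
  convert this using 1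
  module

include hy

theorem yx : B y x = 1 := by rw [h.symm, e, map_one]

theorem nrm (h1 : B x w = 0) (h2 : B y w = 0) {w' : V} (h3 : B x w' = 0) (h4 : B y w' = 0)
    (a b c d : F) : B (a • x + b • y + w) (c • x + d • y + w') = σ a * d + c * σ b + B w w' := by
  have h5 : B w x = 0 := by rw [h.symm, h1, map_zero]
  have h6 : B w y = 0 := by rw [h.symm, h2, map_zero]
  simp only [map_add, map_smul, LinearMap.add_apply, LinearMap.map_smulₛₗ, LinearMap.smul_apply,
    hx.2.1, hy.2.1, e, yx h hK hx hy e, h3, h4, h5, h6, smul_eq_mul]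
  ring

theorem iso0 {a b : F} (ht : σ a * b + a * σ b = 0) : F0 B K (a • x + b • y) := by
  rcases eq_or_ne b 0 with rfl | hb
  · rw [zero_smul, add_zero]; exact F0.smul h (.inr hx) _
  · have := mvA h hK hx e (w := 0) (map_zero _) (a := 0) (a' := a) hb (by
      rw [zero_smul, zero_add, add_zero]; exact F0.smul h (.inr hy) _) (by simpa using ht)
    rwa [add_zero] at this

include lc in
theorem gd_of (h1 : B x w = 0) (h2 : B y w = 0) {a b : F} (hv : F0 B K (a • x + b • y + w)) :
    Gd B K x y w := by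
  have n := nrm h hK hx hy e h1 h2 h1 h2
  have n0 := nrm h hK hx hy e (map_zero _) (map_zero _) h1 h2
  have ht : σ a * b + a * σ b = -B w w := by
    have := n a b a b
    rcases hv with hv | hv
    · rw [hv, map_zero] at this; linear_combination -this
    · rw [hv.2.1] at this; linear_combination -this
  simp only [add_zero, map_zero, LinearMap.zero_apply] at n0
  rcases eq_or_ne (B w w) 0 with hw | hw
  · rw [hw, neg_zero] at ht
    have h3 := F0.add h lc (F0.smul h (iso0 h hK hx hy e ht) (-1)) hv (by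
      rw [neg_one_smul, map_neg, LinearMap.neg_apply, n0, ht, neg_zero])
    rw [neg_one_smul, neg_add_cancel_left] at h3
    intro c d hc
    rw [hw, neg_zero] at hc
    refine F0.add h lc (iso0 h hK hx hy e hc) h3 ?_
    simpa using n0 c d 0 0
  have z : ∀ {c d : F}, σ c * d + c * σ d = -B w w → c ≠ 0 ∧ d ≠ 0 := fun hc =>
    ⟨by rintro rfl; exact hw (by simpa using hc), by rintro rfl; exact hw (by simpa using hc)⟩
  have s : σ (B w w) = B w w := (h.symm w w).symm
  have lk : ∀ b b' : F, b * σ b' - σ b * b' ≠ 0 →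
      (∀ c, σ c * b + c * σ b = -B w w → F0 B K (c • x + b • y + w)) →
      ∀ c, σ c * b' + c * σ b' = -B w w → F0 B K (c • x + b' • y + w) := fun b b' hD H c hc => by
    obtain ⟨a1, ha1⟩ : ∃ a1, a1 * (b * σ b' - σ b * b') = -B w w * (b - b') :=
      ⟨_, div_mul_cancel₀ _ hD⟩
    have s1 := congrArg σ ha1
    simp only [map_mul, map_neg, map_sub, s, L1.inv h.toFd] at s1
    have e1 : σ a1 * b + a1 * σ b = -B w w :=
      mul_right_cancel₀ hD (by linear_combination σ b * ha1 - b * s1)
    have e2 : σ a1 * b' + a1 * σ b' = -B w w :=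
      mul_right_cancel₀ hD (by linear_combination σ b' * ha1 - b' * s1)
    have h3 := H a1 e1
    rw [add_comm (a1 • x)] at h3
    have h4 := mvA h hK hy (yx h hK hx hy e) h2 (a' := b') (z e1).1 h3 (by
      linear_combination e2 - e1)
    rw [add_comm (b' • y)] at h4
    exact mvA h hK hx e h1 (z hc).2 h4 (hc.trans e2.symm)
  have h0 : ∀ c, σ c * b + c * σ b = -B w w → F0 B K (c • x + b • y + w) := fun c hc =>
    mvA h hK hx e h1 (z ht).2 hv (hc.trans ht.symm)
  intro c d hc
  by_cases hD : b * σ d - σ b * d = 0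
  · obtain ⟨j, hj⟩ := h.exj
    have hb := (z ht).2
    have hb' := (map_ne_zero σ).2 hb
    have hd' := (map_ne_zero σ).2 (z hc).2
    refine lk (b * j) d (fun h0 => ?_) (lk b (b * j) (fun h0 => ?_) h0) c hc
    · refine mul_ne_zero (mul_ne_zero hb hd') (sub_ne_zero.2 hj) ?_
      rw [map_mul] at h0
      linear_combination σ j * hD - h0
    · refine mul_ne_zero (mul_ne_zero hb hb') (sub_ne_zero.2 hj) ?_
      rw [map_mul] at h0
      linear_combination h0
  · exact lk b d hD h0 c hc

omit hK hx hy e in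
theorem gram {n₁ n₂ m : F} (h1 : σ n₁ = n₁) (h2 : σ n₂ = n₂) : ∃ a b c d : F,
    σ a * b + a * σ b = n₁ ∧ σ c * d + c * σ d = n₂ ∧ σ a * d + c * σ b = m := by
  have i := L1.inv h.toFd
  obtain ⟨a, ha⟩ := h.trace h1
  obtain ⟨t, ht⟩ := h.trace h2
  rcases eq_or_ne n₁ 0 with hn | hn
  · rcases eq_or_ne m 0 with hm | hm
    · exact ⟨0, 0, t, 1, by simp [hn], by simpa [add_comm] using ht, by simp [hm]⟩
    · have hm' := (map_ne_zero σ).2 hm
      refine ⟨0, 1, m, t / σ m, by simp [hn], ?_, by simp⟩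
      rw [map_div₀, i]; field_simp; exact ht
  · obtain ⟨b, hb⟩ := h.norm (r := m * σ m - n₁ * n₂) (by
      rw [map_sub, map_mul, map_mul, i, h1, h2]; ring)
    refine ⟨a, 1, m - σ a * ((b + m) / n₁), (b + m) / n₁, by simpa [add_comm] using ha, ?_, by simp⟩
    simp only [map_sub, map_mul, map_div₀, map_add, i, h1]
    field_simp
    linear_combination -(b + m) * (σ b + σ m) * ha - n₁ * hb

end G1

open G1 in
theorem g1 (h : Hm σ B q) (hK : K ≤ SU B) (lc : LC B K) {z : V} (hz : Full B K z) :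
    (∀ x, x ≠ 0 → B x x = 0 → Full B K x) ∨
      ∃ Y : Submodule F V, Y ≠ ⊥ ∧ Y ≠ ⊤ ∧ ∀ k ∈ K, ∀ v ∈ Y, k v ∈ Y := by
  refine or_iff_not_imp_right.2 fun hY => ?_
  have top : Submodule.span F {v | Full B K v} = ⊤ := by
    by_contra ht
    refine hY ⟨_, fun e => hz.1 ((Submodule.eq_bot_iff _).1 e z (Submodule.subset_span hz)), ht,
      fun k hk => ?_⟩
    exact (Submodule.span_le (p := (Submodule.span F {v | Full B K v}).comap (k : V →ₗ[F] V))).2
      fun v hv => Submodule.subset_span (s := {v | Full B K v}) (Full.map hK hv hk)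
  obtain ⟨y, hy, e⟩ : ∃ y, Full B K y ∧ B z y = 1 := by
    by_contra hn
    refine hz.1 (h.nd z fun v => ?_)
    refine (Submodule.span_le (p := LinearMap.ker (B z))).2 (fun y hy => by_contra fun h0 => ?_)
      (top ▸ Submodule.mem_top)
    exact hn ⟨_, Full.smul h hy (inv_ne_zero h0), by rw [map_smul]; exact inv_mul_cancel₀ h0⟩
  have e' := yx h hK hz hy e
  have s : ∀ w, σ (-B w w) = -B w w := fun w => by rw [map_neg, ← h.symm]
  let G : Submodule F V :=
    { carrier := {w | B z w = 0 ∧ B y w = 0 ∧ G1.Gd B K z y w}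
      add_mem' := fun {u w} ⟨h1, h2, h3⟩ ⟨h4, h5, h6⟩ => by
        have h7 : B z (u + w) = 0 := by rw [map_add, h1, h4, add_zero]
        have h8 : B y (u + w) = 0 := by rw [map_add, h2, h5, add_zero]
        obtain ⟨a, b, c, d, e1, e2, e3⟩ := gram h (m := -B u w) (s u) (s w)
        refine ⟨h7, h8, gd_of h hK lc hz hy e h7 h8 (a := a + c) (b := b + d) ?_⟩
        convert F0.add h lc (h3 a b e1) (h6 c d e2) (by
          rw [nrm h hK hz hy e h1 h2 h4 h5, e3, neg_add_cancel]) using 1
        module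
      zero_mem' := ⟨map_zero _, map_zero _, gd_of h hK lc hz hy e (map_zero _) (map_zero _)
        (a := 0) (b := 0) (.inl (by simp))⟩
      smul_mem' := fun c w ⟨h1, h2, h3⟩ => by
        have h7 : B z (c • w) = 0 := by rw [map_smul, h1, smul_zero]
        have h8 : B y (c • w) = 0 := by rw [map_smul, h2, smul_zero]
        obtain ⟨a, ha⟩ := h.trace (s w)
        refine ⟨h7, h8, gd_of h hK lc hz hy e h7 h8 (a := c * a) (b := c * 1) ?_⟩
        convert F0.smul h (h3 a 1 (by simpa [add_comm] using ha)) c using 1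
        module }
  let π : V →ₗ[F] V := LinearMap.id - E B z y - E B y z
  have p0 : ∀ v, π v = v - B y v • z - B z v • y := fun _ => rfl
  have p1 : ∀ v, B z (π v) = 0 := fun v => by simp [p0, hz.2.1, e]
  have p2 : ∀ v, B y (π v) = 0 := fun v => by simp [p0, hy.2.1, e']
  have p3 : ∀ v, B y v • z + B z v • y + π v = v := fun v => by rw [p0]; abel
  intro x x0 hx
  have : x ∈ G.comap π := (Submodule.span_le (p := G.comap π)).2 (fun v hv => And.intro (p1 v)
    ⟨p2 v, gd_of h hK lc hz hy e (p1 v) (p2 v) (a := B y v) (b := B z v)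
      (by rw [p3]; exact .inr hv)⟩) (top ▸ Submodule.mem_top)
  have h1 := this.2.2 (B y x) (B z x) (by
    have := nrm h hK hz hy e (p1 x) (p2 x) (p1 x) (p2 x) (B y x) (B z x) (B y x) (B z x)
    rw [p3, hx] at this
    linear_combination -this)
  rw [p3] at h1
  exact h1.resolve_left x0

end CF.Rq
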