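import Cfsg.Agent.Rq.L1
import Cfsg.Agent.Rq.L2
import Cfsg.Agent.Rq.F

/-! Rank 3 actions of unitary groups: the good case and `q = 3`. -/

set_option autoImplicit false
open MulAction Module

namespace CF.Rq

variable {F V : Type*} [Field F] [Fintype F] [AddCommGroup V] [Module F V] {σ : F →+* F}
  {B : V →ₛₗ[σ] V →ₗ[F] F} {q : ℕ} {K : Subgroup (V ≃ₗ[F] V)}

namespace GN

/-- a torus on the line -/
def Fr (K : Subgroup (V ≃ₗ[F] V)) (Γ : Subgroup Fˣ) (x y : V) : Prop :=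
  ∀ γ ∈ Γ, (∃ g ∈ K, g x = (γ : F) • x ∧ g y = (1 : F) • y) ∧
    ∃ g ∈ K, g x = (1 : F) • x ∧ g y = (γ : F) • y

omit [Fintype F] in
theorem fr_of_tor {Γ : Subgroup Fˣ} {x y z : V} (t : Tor K Γ x y z) : Fr K Γ x y := by
  intro γ hγ
  obtain ⟨g, hg, h1, h2, -⟩ := t γ hγ 1 (one_mem _) γ⁻¹ (inv_mem hγ) (by simp)
  obtain ⟨g', hg', h1', h2', -⟩ := t 1 (one_mem _) γ hγ γ⁻¹ (inv_mem hγ) (by simp)
  exact ⟨⟨g, hg, h1, h2⟩, g', hg', h1', h2'⟩

theorem ti_add (h : Hm σ B q) {x y : V} (t : Ti2 B x y) (a : F) : Ti2 B x (y + a • x) := by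
  have := t.chg h (a := 1) (b := 0) (c := a) (d := 1) (by simp)
  simpa [add_comm] using this

theorem ti_add' (h : Hm σ B q) {x y : V} (t : Ti2 B x y) (a : F) : Ti2 B (x + a • y) y :=
  (ti_add h (t.symm h) a).symm h

theorem frame (h : Hm σ B q) {Γ : Subgroup Fˣ} (fr : FR B K Γ) {x y : V} (t : Ti2 B x y) :
    ∃ a : F, Fr K Γ x (y + a • x) := by
  obtain ⟨z, hz⟩ := t.ext h
  obtain ⟨a, b, c, H⟩ := fr x y z hz
  exact ⟨a, fr_of_tor H⟩

omit [Fintype F] in
theorem ne_zero_fst {x y : V} (t : Ti2 B x y) : x ≠ 0 := fun e =>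
  one_ne_zero (t.li 1 0 (by simp [e])).1

omit [Fintype F] in
theorem ne_zero_snd {x y : V} (t : Ti2 B x y) : y ≠ 0 := fun e =>
  one_ne_zero (t.li 0 1 (by simp [e])).2

theorem proj (h : Hm σ B q) (hK : K ≤ SU B) {Γ : Subgroup Fˣ} (hΓ : Nd σ Γ) {x y : V}
    (t : Ti2 B x y) (f : Fr K Γ x y) {a b c d : F} (h1 : I2 B K x y a b c d) :
    I2 B K x y a 0 0 0 ∧ I2 B K x y 0 0 0 d := by
  classical
  obtain ⟨γ, hγ, hn⟩ := hΓ.ex
  have n1 : (γ : F) ≠ 1 := fun e => hn (by rw [e]; simp)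
  have n2 : σ γ ≠ 1 := fun e => n1 (σ.injective (by rw [e, map_one]))
  obtain ⟨⟨g, hg, e1, e2⟩, g', hg', e1', e2'⟩ := f γ hγ
  have p1 := h1.proj h hK t hg e1 e2
  have p2 := h1.proj h hK t hg' e1' e2'
  simp only [map_one, mul_one, one_mul, hn, n1, n2, if_false, if_true] at p1 p2
  exact ⟨p2, p1⟩

theorem skew_div (h : Fd σ q) {c p : F} (hc : σ c = -c) :
    σ (c / (p * σ p)) = -(c / (p * σ p)) := by
  rw [map_div₀, map_mul, h.inv, hc, mul_comm, neg_div]

theorem full_of (h : Hm σ B q) (hK : K ≤ SU B) {Γ : Subgroup Fˣ} (hΓ : Nd σ Γ) {x y : V}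
    (t : Ti2 B x y) (f : Fr K Γ x y) {p r : F} (hp : p ≠ 0) (hv : Full B K (p • x + r • y)) :
    Full B K x := by
  refine ⟨ne_zero_fst t, t.xx, fun c hc => ?_⟩
  have h1 : I2 B K (p • x + r • y) ((0 : F) • x + (0 : F) • y) (c / (p * σ p)) 0 0 0 :=
    I2.fst.2 (hv.2.2 _ (skew_div h.toFd hc))
  have h2 := (proj h hK hΓ t f (I2.chg.1 h1)).1
  have hp' : σ p ≠ 0 := (map_ne_zero σ).2 hp
  rw [I2.fst] at h2
  convert h2 using 2
  field_simp
  ring

end GN

open GN

theorem gn_lc (h : Hm σ B q) (hK : K ≤ SU B) {Γ : Subgroup Fˣ} (hΓ : Nd σ Γ) (fr : FR B K Γ) :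
    LC B K := by
  intro x y t hx hy
  have t1 : Ti2 B (x + y) y := by simpa using ti_add' h t 1
  obtain ⟨a, f⟩ := frame h fr t1
  have t2 := ti_add h t1 a
  by_cases ha : a = 0
  · refine full_of h hK hΓ t2 f (p := 1 + a) (r := -1) (by simp [ha]) ?_
    convert hx using 1
    module
  · refine full_of h hK hΓ t2 f (p := -a) (r := 1) (neg_ne_zero.2 ha) ?_
    convert hy using 1
    module

theorem gn_full (h : Hm σ B q) (hK : K ≤ SU B) {Γ : Subgroup Fˣ} (hΓ : Nd σ Γ) (fr : FR B K Γ)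
    {x y : V} (t : Ti2 B x y) (hi : In K (Pm B x y)) : ∃ z, Full B K z := by
  obtain ⟨a, f⟩ := frame h fr t
  have t1 := ti_add h t a
  set x' := y + a • x with hx'
  have h0 : I2 B K ((1 : F) • x + (0 : F) • x') ((-a) • x + (1 : F) • x') 0 1 (-σ 1) 0 := by
    rw [I2.pm]
    convert hi using 2
    · simp
    · rw [hx']; module
  have h1 := I2.chg.1 h0
  have h2 := h1.add h t1 ((proj h hK hΓ t1 f h1).1.neg h t1)
  let O : AddSubgroup F :=
    { carrier := {d | I2 B K x x' 0 d (-σ d) 0}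
      add_mem' := fun {u v} hu hv => by
        have := I2.add h t1 hu hv
        simp only [add_zero] at this
        show I2 B K x x' 0 (u + v) (-σ (u + v)) 0
        rwa [map_add, neg_add]
      zero_mem' := by
        show I2 B K x x' 0 0 (-σ 0) 0
        rw [map_zero, neg_zero]; exact I2.zero _ _
      neg_mem' := fun {u} hu => by
        have := I2.neg h t1 hu
        simp only [neg_zero] at this
        show I2 B K x x' 0 (-u) (-σ (-u)) 0
        rwa [map_neg] }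
  have o1 : (1 : F) ∈ O := by
    show I2 B K x x' 0 1 (-σ 1) 0
    convert h2 using 1 <;> simp
  have o2 : ∀ r, σ r = r → I2 B K x x' 0 r (-r) 0 := by
    intro r hr
    have : r * 1 ∈ O := hΓ.cl O (fun γ hγ u hu => by
      obtain ⟨g, hg, e1, e2⟩ := (f γ hγ).1
      have := I2.act hK hg e1 e2 hu
      show I2 B K x x' 0 (γ * u) (-σ (γ * u)) 0
      convert this using 1 <;> simp [mul_comm]) r hr 1 o1
    rw [mul_one] at this
    have e : I2 B K x x' 0 r (-σ r) 0 := this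
    rwa [hr] at e
  obtain ⟨j, hj⟩ := h.toFd.exj
  have t2 := ti_add' h t1 j
  obtain ⟨a', f'⟩ := frame h fr t2
  have t3 := ti_add h t2 a'
  refine ⟨_, ne_zero_snd t3, t3.yy, fun c hc => ?_⟩
  have hj' : σ j - j ≠ 0 := sub_ne_zero.2 hj
  have k1 := o2 (c / (σ j - j)) (by
    rw [map_div₀, hc, map_sub, h.toFd.inv, ← neg_sub (σ j) j, neg_div_neg_eq])
  have k2 : I2 B K ((1 + j * a') • (x + j • x') + (-j) • (x' + a' • (x + j • x')))
      ((-a') • (x + j • x') + (1 : F) • (x' + a' • (x + j • x'))) 0 (c / (σ j - j))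
      (-(c / (σ j - j))) 0 := by
    convert k1 using 1 <;> module
  have k3 := (proj h hK hΓ t3 f' (I2.chg.1 k2)).2
  rw [I2.snd] at k3
  convert k3 using 2
  simp only [map_one, map_neg]
  field_simp
  ring

theorem gx (h : Hm σ B 3) (hK : K ≤ SU B) (hu : HU B K) {x y : V} (t : Ti2 B x y)
    (hi : In K (Pm B x y)) : ∃ z, Full B K z := by
  obtain ⟨j, hj⟩ := h.toFd.exj
  have t1 := ti_add' h t j
  set z := x + j • y with hz
  obtain ⟨u, hu, s, s0, e1, e2⟩ := hu z y t1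
  have step : ∀ {a b c d : F}, I2 B K z y a b c d →
      I2 B K z y (b * σ s + c * s + d * s * σ s) (d * s) (d * σ s) 0 := by
    intro a b c d h1
    have h2 := h1.map hK hu
    have h3 : I2 B K ((1 : F) • z + (0 : F) • y) (s • z + (1 : F) • y) a b c d := by
      convert h2 using 1
      · simp [e1]
      · rw [e2]; module
    have h4 := (I2.chg.1 h3).add h t1 (h1.neg h t1)
    convert h4 using 1 <;> simp only [map_one, map_zero] <;> ring
  have h0 : I2 B K ((1 : F) • z + (-j) • y) ((0 : F) • z + (1 : F) • y) 0 1 (-σ 1) 0 := by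
    rw [I2.pm]
    convert hi using 2
    · rw [hz]; module
    · simp
  have h1 := step (step (I2.chg.1 h0))
  have h2 : I2 B K z y (2 * (σ j - j) * (s * σ s)) 0 0 0 := by
    convert h1 using 1 <;> (try simp only [map_one, map_zero, map_neg, map_add, map_mul]) <;> ring
  have n0 : 2 * (σ j - j) * (s * σ s) ≠ 0 :=
    mul_ne_zero (mul_ne_zero h.toFd.three.2 (sub_ne_zero.2 hj))
      (mul_ne_zero s0 ((map_ne_zero σ).2 s0))
  refine ⟨z, ne_zero_fst t1, t1.xx, fun c hc => I2.fst (y := y) |>.1 ?_⟩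
  rcases h.toFd.skew3 (h2.skew h hK t1).1 n0 hc with e | e | e
  · rw [e]; exact I2.zero _ _
  · rwa [e]
  · rw [e]; simpa using h2.neg h t1

end CF.Rq
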