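import Cfsg.Agent.Rq.GN

/-! Rank 3 actions of unitary groups: local lemmas for the norm one torus. -/

set_option autoImplicit false
open MulAction Module

namespace CF.Rq

variable {F V : Type*} [Field F] [Fintype F] [AddCommGroup V] [Module F V] {σ : F →+* F}
  {B : V →ₛₗ[σ] V →ₗ[F] F} {q : ℕ} {K : Subgroup (V ≃ₗ[F] V)}

open GN

namespace M1

/-- half of a torus on the line -/
def T1 (σ : F →+* F) (K : Subgroup (V ≃ₗ[F] V)) (x y : V) : Prop :=
  ∀ γ ∈ Mu σ, ∃ g ∈ K, g x = (γ : F) • x ∧ g y = (1 : F) • y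

omit [Fintype F] in
theorem t1_of {x y : V} (f : Fr K (Mu σ) x y) : T1 σ K x y := fun γ hγ => (f γ hγ).1

theorem diag (h : Hm σ B q) (hK : K ≤ SU B) {x y : V} (t : Ti2 B x y) (f : T1 σ K x y)
    {a b c d : F} (h1 : I2 B K x y a b c d) : I2 B K x y a 0 0 d := by
  classical
  obtain ⟨γ, hγ, h2, -⟩ := h.toFd.ex_mu
  have n1 : (γ : F) ≠ 1 := fun e => h2 (by rw [Units.ext (v := 1) e, one_pow])
  have n2 : σ γ ≠ 1 := fun e => n1 (σ.injective (by rw [e, map_one]))
  have n3 : (γ : F) * σ γ = 1 := hγ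
  obtain ⟨g, hg, e1, e2⟩ := f γ hγ
  have p1 := h1.proj h hK t hg e1 e2
  simpa only [map_one, mul_one, one_mul, n3, n1, n2, if_false, if_true] using p1

theorem rt_off (h : Hm σ B q) (hK : K ≤ SU B) {x y : V} (t : Ti2 B x y) (f : T1 σ K x y)
    {a b c d : F} (h1 : I2 B K x y a b c d) (hb : b ≠ 0) : Rt B K x y := by
  have h2 := h1.sub h t (diag h hK t f h1)
  let O : AddSubgroup F :=
    { carrier := {d | I2 B K x y 0 d (-σ d) 0}
      add_mem' := fun {u v} hu hv =>
        (I2.add h t hu hv).congr (add_zero _) rfl (by rw [map_add, neg_add]) (add_zero _)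
      zero_mem' := (I2.zero _ _).congr rfl rfl (by simp) rfl
      neg_mem' := fun {u} hu => (I2.neg h t hu).congr neg_zero rfl (by rw [map_neg]) neg_zero }
  have o1 : b ∈ O := h2.congr (sub_self _) (sub_zero _)
    (by rw [sub_zero]; exact (h1.skew h hK t).2.1) (sub_self _)
  intro s
  refine I2.pm.1 (h.toFd.mu_cl O (fun γ hγ u hu => ?_) o1 hb s)
  obtain ⟨g, hg, e1, e2⟩ := f γ hγ
  exact (I2.act hK hg e1 e2 hu).congr (by simp) (by simp [mul_comm]) (by simp [mul_comm]) (by simp)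

omit [Fintype F] in
theorem exp {x y : V} {p r s : F} : In K (s • E B (p • x + r • y) (p • x + r • y)) ↔
    I2 B K x y (s * p * σ p) (s * p * σ r) (s * r * σ p) (s * r * σ r) := by
  rw [← I2.fst (y := (0 : F) • x + (0 : F) • y), I2.chg]
  simp

theorem full_iff (h : Hm σ B q) {x y : V} (t : Ti2 B x y) {p r : F} (hp : p ≠ 0 ∨ r ≠ 0) :
    Full B K (p • x + r • y) ↔ ∀ s, σ s = -s →
      I2 B K x y (s * p * σ p) (s * p * σ r) (s * r * σ p) (s * r * σ r) :=
  ⟨fun k s hs => exp.1 (k.2.2 s hs), fun k =>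
    ⟨fun e => by have := t.li p r e; tauto, t.iso h _ _ _ _, fun s hs => exp.2 (k s hs)⟩⟩

theorem skew_mul (h : Fd σ q) {s : F} (hs : σ s = -s) (p : F) :
    σ (s * p * σ p) = -(s * p * σ p) := by
  rw [map_mul, map_mul, hs, h.inv]; ring

omit [Fintype F] in
theorem diff {x : V} {ψ : V →ₗ[F] V} (hx : B x x = 0) (h0 : ψ x = 0) {c d : F}
    (h1 : In K (ψ + c • E B x x)) (h2 : In K (ψ + d • E B x x)) : In K ((c - d) • E B x x) := by
  obtain ⟨g, hg, e⟩ := h1
  obtain ⟨g', hg', e'⟩ := h2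
  refine ⟨g'⁻¹ * g, mul_mem (inv_mem hg') hg, fun v => g'.injective ?_⟩
  rw [← LinearEquiv.mul_apply, mul_inv_cancel_left, e, e']
  simp only [LinearMap.add_apply, LinearMap.smul_apply, E_apply, map_add, map_smul, h0, hx,
    smul_eq_mul]
  module

end M1

open M1

theorem pj (h : Hm σ B q) (hK : K ≤ SU B) {x y z : V} (t : Ti3 B x y z)
    (ht : Tor K (Mu σ) x y z) {a b c : F} (hf : Full B K (a • x + b • y + c • z)) (hb : b ≠ 0)
    (hc : c ≠ 0) : Rt B K y z := by
  classical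
  have tyz : Ti2 B y z := ⟨t.yy, t.yz, t.zz, fun a b e => (t.li 0 a b (by simpa using e)).2⟩
  have txu : ∀ b : F, b ≠ 0 → Ti2 B x (b • y + c • z) := fun b hb =>
    ⟨t.xx, by simp [t.xy, t.xz], tyz.iso h _ _ _ _, fun p r e => by
      have := t.li p (r * b) (r * c) (by rw [← e]; module)
      exact ⟨this.1, (mul_eq_zero.1 this.2.1).resolve_right hb⟩⟩
  obtain ⟨s, s0, hs⟩ := h.toFd.ex_skew
  obtain ⟨γ, hγ, h2, h3⟩ := h.toFd.ex_mu
  have n : (γ : F) * σ γ = 1 := hγ
  have g0 : (γ : F) ≠ 0 := γ.ne_zero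
  have sg : σ γ = (γ : F)⁻¹ := (inv_eq_of_mul_eq_one_right n).symm
  have h3' : (γ : F) ^ 3 ≠ 1 := fun e => h3 (Units.ext e)
  have n1 : (γ : F) ≠ 1 := fun e => h3' (by rw [e, one_pow])
  have k0 : I2 B K x (b • y + c • z) (s * a * σ a) (s * a * σ 1) (s * 1 * σ a) (s * 1 * σ 1) := by
    refine exp.1 ?_
    convert hf.2.2 s hs using 3 <;> module
  obtain ⟨g, hg, e1, e2, e3⟩ := ht (γ⁻¹ ^ 2) (pow_mem (inv_mem hγ) 2) γ hγ γ hγ (by group)
  have k1 := k0.proj h hK (txu b hb) hg e1 (β := γ) (by rw [map_add, map_smul, map_smul, e2, e3]; module)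
  have c1 : ((γ⁻¹ ^ 2 : Fˣ) : F) * σ ((γ⁻¹ ^ 2 : Fˣ) : F) = 1 := pow_mem (inv_mem hγ) 2
  have c2 : ((γ⁻¹ ^ 2 : Fˣ) : F) * σ γ ≠ 1 := fun e => h3' (by
    rw [sg] at e; simp at e; field_simp at e; linear_combination -e)
  have c3 : (γ : F) * σ ((γ⁻¹ ^ 2 : Fˣ) : F) ≠ 1 := fun e => h3' (by
    simp [sg] at e; linear_combination e)
  simp only [c1, c2, c3, n, if_true, if_false] at k1
  obtain ⟨g', hg', f1, f2, f3⟩ := ht γ⁻¹ (inv_mem hγ) γ hγ 1 (one_mem _) (by simp)
  have k2 := k1.map hK hg'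
  have n' : ((γ⁻¹ : Fˣ) : F) * σ ((γ⁻¹ : Fˣ) : F) = 1 := inv_mem hγ
  have k3 : I2 B K x ((b * γ) • y + c • z) (s * a * σ a) 0 0 (s * 1 * σ 1) := by
    have : I2 B K (((γ⁻¹ : Fˣ) : F) • x + (0 : F) • ((b * γ) • y + c • z))
        ((0 : F) • x + (1 : F) • ((b * γ) • y + c • z)) (s * a * σ a) 0 0 (s * 1 * σ 1) := by
      convert k2 using 1
      · rw [f1]; simp
      · rw [map_add, map_smul, map_smul, f2, f3]; simp [smul_smul]
    refine (I2.chg.1 this).congr ?_ (by simp) (by simp) (by simp)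
    simp only [zero_mul, add_zero, map_zero, mul_zero]
    rw [mul_assoc, n', mul_one]
  have bx : ∀ p r : F, B x (p • y + r • z) = 0 := fun p r => by simp [t.xy, t.xz]
  have xb : ∀ p r : F, B (p • y + r • z) x = 0 := fun p r => by rw [h.symm, bx, map_zero]
  have k4 := In.add (fun v => by
    simp only [LinearMap.neg_apply, map_neg, L1.m2, neg_eq_zero]
    rw [map_add (B x), map_add (B _), map_smul, map_smul, map_smul, map_smul, t.xx, bx, xb,
      tyz.iso h]
    simp) k3 (k1.neg h (txu b hb))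
  have k5 : I2 B K y z 0 (s * b * σ c * (γ - 1)) (s * c * σ b * (σ γ - 1)) 0 := by
    refine k4.congr fun v => ?_
    rw [LinearMap.add_apply, L1.m2, L1.m2, L1.m2]
    simp only [map_add, LinearMap.map_smulₛₗ₂, LinearMap.add_apply, LinearMap.smul_apply,
      smul_eq_mul, map_mul, map_one]
    match_scalars
    · ring
    · linear_combination (s * b * σ b * B y v) * n
    · ring
  refine rt_off h hK tyz (fun δ hδ => ?_) k5
    (mul_ne_zero (mul_ne_zero (mul_ne_zero s0 hb) ((map_ne_zero σ).2 hc)) (sub_ne_zero.2 n1))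
  obtain ⟨u, hu, -, u2, u3⟩ := ht δ⁻¹ (inv_mem hδ) δ hδ 1 (one_mem _) (by simp)
  exact ⟨u, hu, u2, u3⟩

theorem lemB (h : Hm σ B q) (hK : K ≤ SU B) {z z' w : V} (t : Ti2 B z z')
    (ht : Tor K (Mu σ) z z' w) (nz : ¬ Full B K z) {b : F} (hb : b ≠ 0)
    (hx : Full B K (z + b • z')) : Rt B K z z' ∧ ¬ Full B K z' ∧
      ∀ b' : F, Full B K (z + b' • z') ↔ b' * σ b' = b * σ b := by
  have f := t1_of (fr_of_tor ht)
  have H : ∀ b' : F, Full B K (z + b' • z') ↔ ∀ s, σ s = -s →
      I2 B K z z' s (s * σ b') (s * b') (s * b' * σ b') := fun b' => by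
    have := full_iff (K := K) h t (p := 1) (r := b') (.inl one_ne_zero)
    simpa using this
  obtain ⟨s, s0, hs⟩ := h.toFd.ex_skew
  have r : Rt B K z z' :=
    rt_off h hK t f ((H b).1 hx s hs) (mul_ne_zero s0 ((map_ne_zero σ).2 hb))
  have n : ¬ Full B K z' := fun k => nz ⟨ne_zero_fst t, t.xx, fun c hc => I2.fst.1
    (((diag h hK t f ((H b).1 hx c hc)).sub h t
      (I2.snd.2 (k.2.2 _ (skew_mul h.toFd hc b)))).congr (sub_zero _) (sub_zero _) (sub_zero _)
      (sub_self _))⟩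
  refine ⟨r, n, fun b' => ⟨fun k => ?_, fun e => (H b').2 fun c hc => ?_⟩⟩
  · by_contra hn
    have hn' : b' * σ b' - b * σ b ≠ 0 := sub_ne_zero.2 hn
    refine n ⟨ne_zero_snd t, t.yy, fun c hc => I2.snd (x := z) |>.1 ?_⟩
    have hc' : σ (c / (b' * σ b' - b * σ b)) = -(c / (b' * σ b' - b * σ b)) := by
      rw [map_div₀, hc, map_sub, map_mul, map_mul, h.toFd.inv, h.toFd.inv, mul_comm (σ b'),
        mul_comm (σ b), neg_div]
    refine ((diag h hK t f ((H b').1 k _ hc')).sub h t (diag h hK t f ((H b).1 hx _ hc'))).congr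
      (sub_self _) (sub_self _) (sub_self _) ?_
    field_simp
  · refine ((diag h hK t f ((H b).1 hx c hc)).add h t (I2.pm.2 (r (c * σ b')))).congr
      (add_zero _) (zero_add _) ?_ ?_
    · rw [map_mul, hc, h.toFd.inv]; ring
    · rw [add_zero, mul_assoc, mul_assoc, e]

theorem lemC (h : Hm σ B q) {x w : V} (t : Ti2 B x w) (hx : Full B K x) (hr : Rt B K x w) {a : F}
    (hw : Full B K (a • x + w)) (c d : F) (hcd : c ≠ 0 ∨ d ≠ 0) :
    Full B K (c • x + d • w) := by
  have fw : ∀ s, σ s = -s → I2 B K x w 0 0 0 s := fun s hs => by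
    have k := (full_iff (K := K) h t (p := a) (r := 1) (.inr one_ne_zero)).1 (by simpa using hw) s hs
    refine ((k.sub h t (I2.fst.2 (hx.2.2 _ (skew_mul h.toFd hs a)))).sub h t
      (I2.pm.2 (hr (s * a)))).congr (by ring) (by simp) ?_ (by simp)
    rw [map_mul, hs]; ring
  refine (full_iff h t hcd).2 fun s hs => ?_
  refine (((I2.fst.2 (hx.2.2 _ (skew_mul h.toFd hs c))).add h t
    (I2.pm.2 (hr (s * c * σ d)))).add h t (fw _ (skew_mul h.toFd hs d))).congr
    (by ring) (by ring) ?_ (by ring)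
  rw [map_mul, map_mul, hs, h.toFd.inv]; ring

theorem m_full (h : Hm σ B q) (hK : K ≤ SU B) (fr : FR B K (Mu σ)) (hq : HQ B K) :
    ∃ z, Full B K z := by
  obtain ⟨x, y, c, xx, xy, li, -, hi, tor⟩ := hq
  have yx : B y x = 0 := by rw [h.symm, xy, map_zero]
  obtain ⟨j, hj⟩ := h.toFd.exj
  by_cases yy : B y y = 0
  · have t : Ti2 B x y := ⟨xx, xy, yy, li⟩
    have f : T1 σ K x y := fun γ hγ => by simpa using tor γ hγ
    have k0 : I2 B K x y c 1 (-1) 0 := hi.congr fun v => by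
      rw [L1.m2]; simp [Pm_apply, E_apply]; module
    have r := rt_off h hK t f k0 one_ne_zero
    have t1 : Ti2 B (x + y) y := by simpa using ti_add' h t 1
    obtain ⟨a, f'⟩ := frame h fr t1
    have t2 := ti_add h t1 a
    have k1 : I2 B K ((1 + a) • (x + y) + (-1 : F) • (y + a • (x + y)))
        ((-a) • (x + y) + (1 : F) • (y + a • (x + y))) 0 1 (-σ 1) 0 := by
      convert I2.pm.2 (r 1) using 1 <;> module
    have r' := rt_off h hK t2 (t1_of f') (I2.chg.1 k1) (by simp)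
    have k2 : ∀ d, I2 B K x y (d * σ a - σ d * a) 0 0 (d - σ d + (d * σ a - σ d * a)) := fun d => by
      have : I2 B K ((1 : F) • x + (1 : F) • y) (a • x + (1 + a) • y) 0 d (-σ d) 0 := by
        convert I2.pm.2 (r' d) using 1 <;> module
      refine (diag h hK t f (I2.chg.1 this)).congr ?_ rfl rfl ?_ <;>
        simp only [map_one, map_add] <;> ring
    have hj' : j - σ j ≠ 0 := sub_ne_zero.2 hj.symm
    by_cases hA : j * σ a - σ j * a = 0
    · refine ⟨y, ne_zero_snd t, yy, fun s hs => I2.snd (x := x) |>.1 ?_⟩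
      have e : σ (s / (j - σ j)) = s / (j - σ j) := by
        rw [map_div₀, hs, map_sub, h.toFd.inv, ← neg_sub j, neg_div_neg_eq]
      refine (k2 (s / (j - σ j) * j)).congr ?_ rfl rfl ?_ <;> rw [map_mul, e]
      · linear_combination s / (j - σ j) * hA
      · have : s / (j - σ j) * (j - σ j) = s := div_mul_cancel₀ _ hj'
        linear_combination s / (j - σ j) * hA + this
    · set A := j * σ a - σ j * a with eA
      have sA : σ A = -A := by rw [eA, map_sub, map_mul, map_mul, h.toFd.inv, h.toFd.inv]; ring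
      obtain ⟨b, hb⟩ := h.toFd.norm (r := (j - σ j + A) / A) (by
        rw [map_div₀, map_add, sA, map_sub, h.toFd.inv, ← neg_div_neg_eq]; congr 1 <;> ring)
      refine ⟨_, (full_iff h t (p := 1) (r := b) (.inl one_ne_zero)).2 fun s hs => ?_⟩
      have e : σ (s / A) = s / A := by rw [map_div₀, hs, sA, neg_div_neg_eq]
      have e1 : s / A * A = s := div_mul_cancel₀ _ hA
      refine ((k2 (s / A * j)).add h t (I2.pm.2 (r (s * σ b)))).congr ?_ (by simp) ?_ ?_
      · rw [map_mul, e, map_one]; linear_combination e1 - s / A * eA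
      · rw [map_mul, hs, h.toFd.inv, map_one]; ring
      · rw [map_mul, e, mul_assoc s, hb]
        have : s / A * j * σ a - s / A * σ j * a = s := by linear_combination e1 - s / A * eA
        rw [this]; field_simp; ring
  · have mul : ∀ {a a' c c' : F}, In K (Pm B x (a • y) + c • E B x x) →
        In K (Pm B x (a' • y) + c' • E B x x) →
        In K (Pm B x ((a + a') • y) + (c + c' - σ a * a' * B y y) • E B x x) := by
      intro a a' c c' h1 h2
      refine (h1.mul h2).congr fun v => ?_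
      simp only [LinearMap.add_apply, LinearMap.smul_apply, LinearMap.comp_apply, Pm_apply, E_apply,
        map_add, map_sub, map_smul, LinearMap.map_smulₛₗ₂, smul_eq_mul, xx, xy, yx]
      match_scalars <;> ring
    have act : ∀ γ ∈ Mu σ, ∀ {a c : F}, In K (Pm B x (a • y) + c • E B x x) →
        In K (Pm B x (((γ : F) * a) • y) + c • E B x x) := by
      intro γ hγ a c h1
      obtain ⟨g, hg, e1, e2⟩ := tor γ⁻¹ (inv_mem hγ)
      have n : (γ : F) * σ γ = 1 := hγ
      have e1' : x = (γ : F) • g x := by rw [e1, smul_smul]; simp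
      refine h1.conj hg fun v => ?_
      have b1 : B x (g v) = σ γ * B x v := by
        conv_lhs => rw [e1']
        rw [LinearMap.map_smulₛₗ₂, (hK hg).1, smul_eq_mul]
      have b2 : B y (g v) = B y v := by
        conv_lhs => rw [← e2]
        exact (hK hg).1 _ _
      have gi : ((γ⁻¹ : Fˣ) : F) = σ γ := by
        rw [Units.val_inv_eq_inv_val]; exact inv_eq_of_mul_eq_one_right n
      simp only [LinearMap.add_apply, LinearMap.smul_apply, Pm_apply, E_apply,
        map_add, map_sub, map_smul, LinearMap.map_smulₛₗ₂, smul_eq_mul, b1, b2, e1, e2, gi, map_mul]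
      match_scalars
      · ring
      · linear_combination (-(B x v) * a) * n
    let A : AddSubgroup F :=
      { carrier := {a | ∃ c, In K (Pm B x (a • y) + c • E B x x)}
        add_mem' := fun ⟨_, h1⟩ ⟨_, h2⟩ => ⟨_, mul h1 h2⟩
        zero_mem' := ⟨0, In.zero.congr fun v => by simp [Pm_apply]⟩
        neg_mem' := fun ⟨c, h1⟩ => ⟨c, by
          simpa using act (-1) (show ((-1 : Fˣ) : F) * σ ((-1 : Fˣ) : F) = 1 by simp) h1⟩ }
    have hi' : In K (Pm B x ((1 : F) • y) + c • E B x x) := by rwa [one_smul]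
    have all := h.toFd.mu_cl A (fun γ hγ a ⟨c, h1⟩ => ⟨c, act γ hγ h1⟩) (a := 1) ⟨c, hi'⟩ one_ne_zero
    refine ⟨x, fun e => one_ne_zero (li 1 0 (by simp [e])).1, xx, fun s hs => ?_⟩
    have fy : σ (B y y) = B y y := (h.symm y y).symm
    obtain ⟨a, ha⟩ := h.toFd.skew (c := s / B y y) (by rw [map_div₀, hs, fy, neg_div])
    obtain ⟨c', h1⟩ := all a
    have p1 := mul h1 hi'
    have p2 := mul hi' h1
    rw [add_comm 1 a] at p2
    have := diff xx (by simp [Pm_apply, xx, yx]) p1 p2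
    convert this using 2
    have e : s / B y y * B y y = s := div_mul_cancel₀ _ yy
    rw [map_one]
    linear_combination -e + B y y * ha

end CF.Rq
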