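import Cfsg.Agent.Rq.M1

/-! Norm one torus: no Baer lines. -/

set_option autoImplicit false
open MulAction Module Submodule

namespace CF.Rq

variable {F V : Type*} [Field F] [Fintype F] [AddCommGroup V] [Module F V] {σ : F →+* F}
  {B : V →ₛₗ[σ] V →ₗ[F] F} {q : ℕ} {K : Subgroup (V ≃ₗ[F] V)}

namespace M2

variable (B K) in
/-- all points are full -/
def Al (L : Submodule F V) : Prop := ∀ v ∈ L, v ≠ 0 → Full B K v

variable (B K) in
/-- some point is full -/
def On (L : Submodule F V) : Prop := ∃ v ∈ L, Full B K v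

variable (B K) in
/-- two points are full -/
def Tp (L : Submodule F V) : Prop :=
  ∃ u ∈ L, ∃ v ∈ L, Full B K u ∧ Full B K v ∧ ∀ c : F, u ≠ c • v

omit [Fintype F] in
theorem inv1 (hK : K ≤ SU B) {L L' : Submodule F V} {k : V ≃ₗ[F] V} (hk : k ∈ K)
    (e : ∀ v, k v ∈ L' ↔ v ∈ L) :
    (Al B K L' → Al B K L) ∧ (On B K L → On B K L') ∧ (Tp B K L → Tp B K L') :=
  ⟨fun a v hv h0 => by simpa using (a _ ((e v).2 hv) (by simpa using h0)).map hK (inv_mem hk),
    fun ⟨v, a, b⟩ => ⟨k v, (e v).2 a, b.map hK hk⟩,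
    fun ⟨u, a, v, b, c, d, f⟩ => ⟨k u, (e u).2 a, k v, (e v).2 b, c.map hK hk, d.map hK hk,
      fun t g => f t (k.injective (by rw [g, map_smul]))⟩⟩

omit [Fintype F] in
theorem inv (hK : K ≤ SU B) {x y x' y' : V} (e : Eql K x y x' y') :
    (Al B K (span F {x, y}) ↔ Al B K (span F {x', y'})) ∧
    (On B K (span F {x, y}) ↔ On B K (span F {x', y'})) ∧
    (Tp B K (span F {x, y}) ↔ Tp B K (span F {x', y'})) := by
  obtain ⟨k, hk, e⟩ := e
  have a := inv1 hK hk e
  have b := inv1 hK (inv_mem hk) (L := span F {x', y'}) (L' := span F {x, y}) fun v => by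
    rw [← e]; simp
  exact ⟨⟨b.1, a.1⟩, ⟨a.2.1, b.2.1⟩, a.2.2, b.2.2⟩

omit [Fintype F] in
theorem mem (x y : V) (a b : F) : a • x + b • y ∈ span F {x, y} := mem_span_pair.2 ⟨a, b, rfl⟩

omit [Fintype F] in
theorem ne {x y : V} (t : Ti2 B x y) : x ≠ 0 := fun e => one_ne_zero (t.li 1 0 (by simp [e])).1

omit [Fintype F] in
theorem not_al {x y : V} (t : Ti2 B x y) (hx : ¬ Full B K x) : ¬ Al B K (span F {x, y}) :=
  fun a => hx (a x (subset_span (by simp)) (ne t))

variable (h : Hm σ B q)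
include h

omit h [Fintype F] in
theorem not_tp {x y : V} (k : ∀ a b : F, Full B K (a • x + b • y) → b = 0) :
    ¬ Tp B K (span F {x, y}) := by
  rintro ⟨u, hu, v, hv, a, b, c⟩
  obtain ⟨s, t, rfl⟩ := mem_span_pair.1 hu
  obtain ⟨s', t', rfl⟩ := mem_span_pair.1 hv
  obtain rfl := k _ _ a
  obtain rfl := k _ _ b
  have : s' ≠ 0 := fun e => b.1 (by simp [e])
  exact c (s / s') (by simp [smul_smul, this])

theorem nrm {x y : V} {a b : F} (k : Full B K (a • x + b • y)) (hb : b ≠ 0) :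
    Full B K ((a / b) • x + y) := by
  simpa [smul_smul, hb, div_eq_inv_mul] using k.smul h (inv_ne_zero hb)

theorem on {x y : V} (hx : ¬ Full B K x) (k : On B K (span F {x, y})) :
    ∃ a : F, Full B K (a • x + y) := by
  obtain ⟨v, hv, k⟩ := k
  obtain ⟨a, b, rfl⟩ := mem_span_pair.1 hv
  refine ⟨_, nrm h k fun e => hx ?_⟩
  have : a ≠ 0 := fun e' => k.1 (by simp [e, e'])
  simpa [e, smul_smul, this] using k.smul h (inv_ne_zero this)

theorem two {x y z : V} (t : Ti3 B x y z) {a b c a' b' c' : F}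
    (k : ∀ s r : F, s * a + r * a' = 0 → s * b + r * b' = 0 → s * c + r * c' = 0 → s = 0 ∧ r = 0) :
    Ti2 B (a • x + b • y + c • z) (a' • x + b' • y + c' • z) := by
  have e1 := h.refl t.xy
  have e2 := h.refl t.xz
  have e3 := h.refl t.yz
  have z : ∀ a b c a' b' c' : F, B (a • x + b • y + c • z) (a' • x + b' • y + c' • z) = 0 := by
    simp [t.xx, t.xy, t.xz, t.yy, t.yz, t.zz, e1, e2, e3]
  refine ⟨z .., z .., z .., fun s r e => ?_⟩
  obtain ⟨a1, a2, a3⟩ := t.li (s * a + r * a') (s * b + r * b') (s * c + r * c')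
    (by rw [← e]; module)
  exact k s r a1 a2 a3

theorem swap {x y z : V} (t : Ti3 B x y z) : Ti3 B y x z :=
  ⟨t.yy, h.refl t.xy, t.yz, t.xx, t.xz, t.zz, fun a b c e =>
    let ⟨a1, a2, a3⟩ := t.li b a c (by rw [← e]; module); ⟨a2, a1, a3⟩⟩

omit h [Fintype F] in
theorem tswap {Γ : Subgroup Fˣ} {x y z : V} (t : Tor K Γ x y z) : Tor K Γ y x z :=
  fun a ha b hb c hc e =>
    let ⟨g, a1, a2, a3, a4⟩ := t b hb a ha c hc (by rw [← e, mul_comm a]); ⟨g, a1, a3, a2, a4⟩

theorem frame (fr : FR B K (Mu σ)) {x y : V} (t : Ti2 B x y) :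
    ∃ (a : F) (w : V), Ti3 B x (y + a • x) w ∧ Tor K (Mu σ) x (y + a • x) w := by
  obtain ⟨z, t3⟩ := t.ext h
  obtain ⟨a, b, c, k⟩ := fr x y z t3
  have e1 := h.refl t3.xy
  have e2 := h.refl t3.xz
  have e3 := h.refl t3.yz
  refine ⟨a, _, ⟨t.xx, ?_, ?_, ?_, ?_, ?_, fun r s u e => ?_⟩, k⟩
  iterate 5 simp [t3.xx, t3.xy, t3.xz, t3.yy, t3.yz, t3.zz, *]
  obtain ⟨a1, a2, rfl⟩ := t3.li (r + s * a + u * b) (s + u * c) u (by rw [← e]; module)
  obtain rfl : s = 0 := by simpa using a2
  simpa using a1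

theorem t12 {x y z : V} (t : Ti3 B x y z) : Ti2 B x y := by
  simpa using two h t (a := 1) (b := 0) (c := 0) (a' := 0) (b' := 1) (c' := 0) (by simp +contextual)

theorem rsymm {x y : V} (r : Rt B K x y) : Rt B K y x := fun a =>
  (r (-σ a)).congr fun v => by simp [Pm_apply, h.toFd.inv, smul_smul]; module

theorem radd {x y z : V} (t : Ti3 B x y z) (r : Rt B K x z) (r' : Rt B K y z) (b : F) :
    Rt B K (x + b • y) z := fun a => by
  have e1 := h.refl t.xy
  have e2 := h.refl t.xz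
  have e3 := h.refl t.yz
  refine ((r a).add (fun v => ?_) (r' (a * b))).congr fun v => ?_
  · simp [Pm_apply, t.xy, t.xz, t.zz, *]
  · simp [Pm_apply, smul_smul]; module

variable (hK : K ≤ SU B) (fr : FR B K (Mu σ))
include hK fr

omit hK in
/-- a line with two full points and a non-full point -/
theorem baer {x y : V} (t : Ti2 B x y) (hx : Full B K x) (hy : Full B K y)
    (nz : ¬ Full B K (x + y)) : ∃ (a b : F) (w : V), b ≠ 0 ∧ Ti3 B (x + y) (y + a • (x + y)) w ∧
      Tor K (Mu σ) (x + y) (y + a • (x + y)) w ∧ Full B K (x + y + b • (y + a • (x + y))) := by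
  obtain ⟨a, w, t3, k⟩ := frame h fr (x := x + y) (y := y) (by
    simpa using t.chg h (a := 1) (b := 1) (c := 0) (d := 1) (by simp))
  by_cases e : a = 0
  · exact ⟨a, -1, w, by simp, t3, k, by simpa [e] using hx⟩
  · refine ⟨a, -a⁻¹, w, by simpa using e, t3, k, ?_⟩
    convert hy.smul h (a := -a⁻¹) (by simpa using e) using 1
    rw [smul_add, smul_smul, neg_mul, inv_mul_cancel₀ e]
    module

theorem third {x y : V} (t : Ti2 B x y) (hx : Full B K x) (hy : Full B K y) :
    ∃ a : F, a ≠ 0 ∧ Full B K (a • x + y) := by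
  by_contra! k
  obtain ⟨a, b, w, hb, t3, tor, f⟩ := baer h fr t hx hy (by simpa using k 1 one_ne_zero)
  have := (lemB h hK (t12 h t3) tor (by simpa using k 1 one_ne_zero) hb f).2.2
  have key : ∀ c : F, c * σ c = b * σ b → 1 + a * c = 0 ∨ 1 + a * c + c = 0 := fun c hc => by
    by_contra! z
    refine k _ (div_ne_zero z.1 z.2) (nrm h ?_ z.2)
    convert (this c).2 hc using 1
    module
  obtain ⟨γ, hγ, g2, -⟩ := h.toFd.ex_mu
  have m : (γ : F) * σ γ = 1 := hγ
  have g2' : (γ : F) ^ 2 ≠ 1 := fun e => g2 (Units.ext e)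
  have g1 : (γ : F) - 1 ≠ 0 := fun e => g2' (by rw [sub_eq_zero.1 e, one_pow])
  have g0 := γ.ne_zero
  have n : ∀ {u c d : F}, 1 + u * c = 0 → 1 + u * d = 0 → c = d := fun {u c d} p r => by
    linear_combination c * r - d * p
  have n' : ∀ {c d : F}, 1 + a * c + c = 0 → 1 + a * d + d = 0 → c = d := fun {c d} p r => by
    linear_combination c * r - d * p
  have d1 : b ≠ γ * b := fun e => mul_ne_zero g1 hb (by linear_combination -e)
  have d2 : b ≠ γ * (γ * b) := fun e => mul_ne_zero (sub_ne_zero.2 g2') hb (by linear_combination -e)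
  have d3 : γ * b ≠ γ * (γ * b) := fun e => d1 (mul_left_cancel₀ g0 e)
  rcases key b rfl with p | p <;>
    rcases key (γ * b) (by rw [map_mul]; linear_combination (b * σ b) * m) with r | r <;>
    rcases key (γ * (γ * b)) (by
      rw [map_mul, map_mul]; linear_combination (b * σ b) * (γ * σ γ + 1) * m) with s | s
  exacts [d1 (n p r), d1 (n p r), d2 (n p s), d3 (n' r s), d3 (n r s), d2 (n' p s), d1 (n' p r),
    d1 (n' p r)]

theorem line {x y ζ : V} (hx : Full B K x) (hy : Full B K y) (xy : B x y ≠ 0) (xz : B x ζ = 0)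
    (zz : B ζ ζ = 0) (zy : B ζ y = 0) (z0 : ζ ≠ 0) (r : Rt B K x ζ) :
    Ti2 B ζ y ∧ Al B K (span F {ζ, y}) := by
  have t : Ti2 B ζ y := ⟨zz, zy, hy.2.1, fun a b e => by
    obtain rfl : b = 0 := by simpa [xz, xy] using congrArg (B x) e
    simpa [z0] using e⟩
  have k : ∀ s : F, Full B K (s • ζ + y) := fun s => by
    obtain ⟨g, hg, e⟩ := r (σ (-s / B x y))
    convert hy.map hK hg using 1
    simp [e, Pm_apply, zy, h.toFd.inv, xy, add_comm]
  have f : Full B K ζ := by_contra fun nz => by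
    obtain ⟨a, w, t3, tor⟩ := frame h fr t
    refine (lemB h hK (t12 h t3) tor nz one_ne_zero ?_).2.1 (add_comm _ y ▸ k a)
    convert k (1 + a) using 1
    module
  refine ⟨t, fun v hv h0 => ?_⟩
  obtain ⟨a, b, rfl⟩ := mem_span_pair.1 hv
  by_cases e : b = 0
  · subst e
    simpa using f.smul h (a := a) fun e => h0 (by simp [e])
  · convert (k (a / b)).smul h e using 1
    rw [smul_add, smul_smul, mul_div_cancel₀ _ e]

end M2

open M2 in
theorem m_lc (h : Hm σ B q) (hK : K ≤ SU B) (fr : FR B K (Mu σ)) (tw : TwoL B K) :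
    LC B K := by
  intro x0 y0 t0 hx0 hy0
  by_contra n0
  obtain ⟨a0, b, w, hb, t, tor, hx⟩ := baer h fr t0 hx0 hy0 n0
  generalize y0 + a0 • (x0 + y0) = v at t tor hx
  generalize x0 + y0 = u at n0 t tor hx
  obtain ⟨-, n1, hB⟩ := lemB h hK (t12 h t) tor n0 hb hx
  have tuv := t12 h t
  have txw : Ti2 B (u + b • v) w := by
    simpa using two h t (a := 1) (b := b) (c := 0) (a' := 0) (b' := 0) (c' := 1) (by simp +contextual)
  have tuw : Ti2 B u w := by
    simpa using two h t (a := 1) (b := 0) (c := 0) (a' := 0) (b' := 0) (c' := 1) (by simp +contextual)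
  have a1 := not_al tuv n0
  have p1 : Tp B K (span F {u, v}) := by
    obtain ⟨γ, hγ, g2, -⟩ := h.toFd.ex_mu
    have m : (γ : F) * σ γ = 1 := hγ
    refine ⟨_, by simpa using mem u v 1 (γ * b), _, by simpa using mem u v 1 b,
      (hB _).2 (by rw [map_mul]; linear_combination (b * σ b) * m), hx, fun c e => g2 ?_⟩
    obtain ⟨e1, e2⟩ := tuv.li (1 - c) (γ * b - c * b) (by linear_combination (norm := module) e)
    have : ((γ : F) - 1) * b = 0 := by linear_combination e2 - b * e1
    rw [show γ = 1 from Units.ext (sub_eq_zero.1 ((mul_eq_zero.1 this).resolve_right hb)), one_pow]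
  by_cases al : ∃ a : F, a ≠ 0 ∧ Full B K (a • (u + b • v) + w)
  · obtain ⟨a, ha, f⟩ := al
    have r1 : Rt B K v w := pj h hK t tor (a := a) (b := a * b) (c := 1)
      (by convert f using 1; module) (mul_ne_zero ha hb) one_ne_zero
    have r2 : Rt B K u w := pj h hK (swap h t) (tswap tor) (a := a * b) (b := a) (c := 1)
      (by convert f using 1; module) ha one_ne_zero
    have c1 := lemC h txw hx (radd h t r2 r1 b) f
    have a2 : Al B K (span F {u + b • v, w}) := fun z hz h0 => by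
      obtain ⟨c, d, rfl⟩ := mem_span_pair.1 hz
      exact c1 c d (by by_contra! k; exact h0 (by simp [k.1, k.2]))
    have fw : Full B K w := by simpa using c1 0 1 (.inr one_ne_zero)
    have p3 : ¬ Tp B K (span F {w, u}) := not_tp fun c d k => by_contra fun e => n0 (by
      simpa using lemC h (tuw.symm h) fw (rsymm h r2) (nrm h k e) 0 1 (.inr one_ne_zero))
    rcases tw _ _ _ _ _ _ tuv txw (tuw.symm h) with e | e | e
    · exact a1 ((inv hK e).1.2 a2)
    · exact p3 ((inv hK e).2.2.1 p1)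
    · exact not_al tuw n0 (Set.pair_comm w u ▸ (inv hK e).1.1 a2)
  have n2 : ¬ Full B K w := fun k => al (third h hK fr txw hx k)
  have p2 : ¬ Tp B K (span F {u + b • v, w}) := not_tp fun c d k => by_contra fun e => by
    by_cases z : c = 0
    · exact n2 (by simpa [z] using nrm h k e)
    · exact al ⟨_, div_ne_zero z e, nrm h k e⟩
  have key : ∀ x y, Ti2 B x y → On B K (span F {x, y}) ∧ ¬ Al B K (span F {x, y}) := fun x y k => by
    rcases tw _ _ _ _ _ _ tuv txw k with e | e | e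
    · exact absurd ((inv hK e).2.2.1 p1) p2
    · exact ⟨(inv hK e).2.1.1 ⟨_, by simpa using mem u v 1 b, hx⟩, mt (inv hK e).1.2 a1⟩
    · exact ⟨(inv hK e).2.1.1 ⟨_, subset_span (by simp), hx⟩, mt (inv hK e).1.2
        (Set.pair_comm w _ ▸ not_al (txw.symm h) n2)⟩
  obtain ⟨c1, f1⟩ := on h n0 (key u (v + w) (by
    simpa using two h t (a := 1) (b := 0) (c := 0) (a' := 0) (b' := 1) (c' := 1)
      (by simp +contextual))).1
  obtain ⟨c2, f2⟩ := on h n1 (key v (u + w) (by
    simpa using two h t (a := 0) (b := 1) (c := 0) (a' := 1) (b' := 0) (c' := 1)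
      (by simp +contextual))).1
  have r := radd h t (pj h hK (swap h t) (tswap tor) (a := c2) (b := 1) (c := 1)
    (by convert f2 using 1; module) one_ne_zero one_ne_zero)
    (pj h hK t tor (a := c1) (b := 1) (c := 1) (by convert f1 using 1; module) one_ne_zero
      one_ne_zero) b
  obtain ⟨f, ff, uf, vf⟩ := tuv.dual h
  obtain ⟨c, hy⟩ := on h n0 (key u f ⟨t.xx, uf, ff, fun s r e => by
    obtain rfl : r = 0 := by simpa [vf, h.refl t.xy] using congrArg (B v) e
    simpa [ne tuv] using e⟩).1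
  have xy : B (u + b • v) (c • u + f) ≠ 0 := by simp [t.xx, uf, vf, h.refl t.xy, hb]
  generalize c • u + f = y at hy xy
  generalize u + b • v = x at hx xy r txw
  have := line h hK fr hx hy xy (ζ := w - σ (B w y / B x y) • x) (by simp [txw.xx, txw.xy])
    (by simp [txw.xx, txw.xy, txw.yy, txw.yx h]) (by simp [h.toFd.inv, xy])
    (fun e => one_ne_zero (txw.li (-σ (B w y / B x y)) 1 (by rw [← e]; module)).2) fun a => by
      generalize σ (B w y / B x y) = k
      refine ((r a).add (fun z => ?_) (hx.2.2 (σ a * k - a * σ k) ?_)).congr fun z => ?_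
      · simp [Pm_apply, E_apply, txw.xx, txw.yx h]
      · simp [h.toFd.inv, mul_comm]
      · simp [Pm_apply, E_apply, smul_smul]; module
  exact (key _ _ this.1).2 this.2

end CF.Rq
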