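import Cfsg.Agent.Rq.P1

/-! Rank three: a subgroup with symmetric double cosets has at most two orbits. -/

set_option autoImplicit false
set_option linter.unusedSectionVars false
open MulAction Module

namespace CF.Rq

/-- commuting maps have a common eigenvector in every non-zero invariant subspace -/
theorem common_eig {E ι : Type*} [AddCommGroup E] [Module ℂ E] [FiniteDimensional ℂ E]
    (A : ι → E →ₗ[ℂ] E) (W : Submodule ℂ E) (h0 : W ≠ ⊥) (hi : ∀ i, ∀ w ∈ W, A i w ∈ W)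
    (hc : ∀ i j, ∀ w ∈ W, A i (A j w) = A j (A i w)) :
    ∃ v ∈ W, v ≠ 0 ∧ ∀ i, ∃ c : ℂ, A i v = c • v := by
  induction W using WellFoundedLT.induction with
  | ind W ih =>
  by_cases hs : ∀ i, ∃ c : ℂ, ∀ w ∈ W, A i w = c • w
  · obtain ⟨v, hv, v0⟩ := Submodule.exists_mem_ne_zero_of_ne_bot h0
    exact ⟨v, hv, v0, fun i => (hs i).imp fun c hc => hc v hv⟩
  push Not at hs
  obtain ⟨i, hs⟩ := hs
  have : Nontrivial W := Submodule.nontrivial_iff_ne_bot.mpr h0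
  obtain ⟨c, hc'⟩ := Module.End.exists_eigenvalue ((A i).restrict (hi i))
  obtain ⟨v, hv⟩ := hc'.exists_hasEigenvector
  have hv1 : A i v = c • (v : E) := congrArg Subtype.val hv.apply_eq_smul
  obtain ⟨w, hw, hw'⟩ := hs c
  have mem : ∀ x, x ∈ W ⊓ Module.End.eigenspace (A i) c ↔ x ∈ W ∧ A i x = c • x := fun x => by
    rw [Submodule.mem_inf, Module.End.mem_eigenspace_iff]
  obtain ⟨x, hx, h⟩ := ih (W ⊓ Module.End.eigenspace (A i) c)
    (lt_of_le_of_ne inf_le_left fun e => hw' ((mem w).mp (e.symm ▸ hw)).2)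
    (fun e => hv.2 (Subtype.ext ((Submodule.eq_bot_iff _).mp e v ((mem v).mpr ⟨v.2, hv1⟩))))
    (fun j y hy => (mem _).mpr ⟨hi j y hy.1, by
      rw [hc i j y hy.1, ((mem y).mp hy).2, map_smul]⟩)
    fun j k y hy => hc j k y hy.1
  exact ⟨x, hx.1, h⟩

section
variable {G : Type*} [Group G] [Finite G] {Ω : Type*} [MulAction G Ω] {U T N : Subgroup G}

/-- the Hecke operator of `g` -/
def hk (P : Subgroup G) [Fintype P] (Ω : Type*) [MulAction G Ω] (g : G) :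
    (Ω → ℂ) →ₗ[ℂ] (Ω → ℂ) where
  toFun f x := ∑ p : P, f (g • (p : G) • x)
  map_add' f f' := by funext x; simp [Finset.sum_add_distrib]
  map_smul' c f := by funext x; simp [Finset.mul_sum]

/-- the invariant functions -/
def inv (P : Subgroup G) (Ω : Type*) [MulAction G Ω] : Submodule ℂ (Ω → ℂ) where
  carrier := {f | ∀ p ∈ P, ∀ x, f (p • x) = f x}
  add_mem' {a b} ha hb p hp x := by simp [ha p hp, hb p hp]
  zero_mem' _ _ _ := rfl
  smul_mem' c f hf p hp x := by simp [hf p hp]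

variable {P : Subgroup G} [Fintype P]

theorem hk_apply (g : G) (f : Ω → ℂ) (x : Ω) :
    hk P Ω g f x = ∑ p : P, f (g • (p : G) • x) := rfl

theorem hk_mem (g : G) (f : Ω → ℂ) : hk P Ω g f ∈ inv P Ω := fun p hp x => by
  rw [hk_apply, hk_apply]
  refine Fintype.sum_equiv (Equiv.mulRight (⟨p, hp⟩ : P)) _ _ fun k' => ?_
  simp [mul_smul]

theorem hk_inv (hP : Gf P) (g : G) {f : Ω → ℂ} (hf : f ∈ inv P Ω) :
    hk P Ω g⁻¹ f = hk P Ω g f := by
  obtain ⟨p, hp, p', hp', e⟩ := hP g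
  funext x
  rw [hk_apply, hk_apply, e]
  refine Fintype.sum_equiv (Equiv.mulLeft (⟨p', hp'⟩ : P)) _ _ fun k' => ?_
  rw [mul_smul, mul_smul, hf p hp]
  simp [mul_smul]

theorem hk_hk (g g' : G) (f : Ω → ℂ) :
    hk P Ω g (hk P Ω g' f) = ∑ p : P, hk P Ω (g' * p * g) f := by
  funext x
  simp only [hk_apply, Finset.sum_apply, mul_smul]
  exact Finset.sum_comm

theorem hk_comm (hP : Gf P) (g g' : G) {f : Ω → ℂ} (hf : f ∈ inv P Ω) :
    hk P Ω g (hk P Ω g' f) = hk P Ω g' (hk P Ω g f) := by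
  rw [← hk_inv hP g hf, ← hk_inv hP g' (hk_mem _ _), hk_hk, hk_hk]
  refine Fintype.sum_equiv (Equiv.inv P) _ _ fun p => ?_
  rw [← hk_inv hP _ hf]
  simp [mul_assoc]

theorem hk_ip [Fintype Ω] (g : G) (f : Ω → ℂ) {w : Ω → ℂ} (hw : w ∈ inv P Ω) :
    ∑ x, hk P Ω g f x * (starRingEnd ℂ) (w x) =
      Fintype.card P * ∑ x, f (g • x) * (starRingEnd ℂ) (w x) := by
  simp only [hk_apply, Finset.sum_mul]
  rw [Finset.sum_comm, Finset.sum_congr rfl fun (p : P) _ => (?_ : _ =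
    ∑ x, f (g • x) * (starRingEnd ℂ) (w x))]
  · simp
  rw [← sum_smul_eq (p : G) fun x => f (g • x) * (starRingEnd ℂ) (w x)]
  exact Finset.sum_congr rfl fun x _ => by rw [hw p p.2]

theorem og_of_eig [Fintype Ω] {v w : Ω → ℂ} (hw : w ∈ inv P Ω)
    (hv : ∀ g, ∃ c : ℂ, hk P Ω g v = c • v) (h : ∑ x, v x * (starRingEnd ℂ) (w x) = 0) :
    Og G v w := fun g => by
  obtain ⟨c, hc⟩ := hv g
  have := hk_ip g v hw
  simp only [hc, Pi.smul_apply, smul_eq_mul, mul_assoc, ← Finset.mul_sum, h, mul_zero] at this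
  exact (mul_eq_zero.mp this.symm).resolve_left (Nat.cast_ne_zero.mpr Fintype.card_ne_zero)

/-- pairing with `w` -/
def ipr [Fintype Ω] (w : Ω → ℂ) : (Ω → ℂ) →ₗ[ℂ] ℂ where
  toFun f := ∑ x, f x * (starRingEnd ℂ) (w x)
  map_add' f f' := by simp [add_mul, Finset.sum_add_distrib]
  map_smul' c f := by simp [Finset.mul_sum, mul_assoc]

theorem hk_perp [Fintype Ω] (hP : Gf P) {v w : Ω → ℂ} (hv : v ∈ inv P Ω) (hw : w ∈ inv P Ω)
    (he : ∀ g, ∃ c : ℂ, hk P Ω g w = c • w) (h : ipr w v = 0) (g : G) :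
    ipr w (hk P Ω g v) = 0 := by
  have h1 : Og G w v := og_of_eig hv he (by
    have := congrArg (starRingEnd ℂ) h
    simpa [ipr, mul_comm] using this)
  exact (hk_ip g v hw).trans (by rw [h1.symm g, mul_zero])

theorem ex_perp [Fintype Ω] (hP : Gf P) (hn : ¬ Two Ω P) {a b : Ω → ℂ} (ha : a ∈ inv P Ω)
    (hb : b ∈ inv P Ω) (ea : ∀ g, ∃ c : ℂ, hk P Ω g a = c • a)
    (eb : ∀ g, ∃ c : ℂ, hk P Ω g b = c • b) : ∃ v ∈ inv P Ω, v ≠ 0 ∧
      (∀ g, ∃ c : ℂ, hk P Ω g v = c • v) ∧ Og G v a ∧ Og G v b := by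
  classical
  simp only [Two, not_forall, not_or] at hn
  obtain ⟨x, y, z, xy, xz, yz⟩ := hn
  let ind : Ω → Ω → ℂ := fun x y => if ∃ p ∈ P, p • x = y then 1 else 0
  have hind : ∀ x, ind x ∈ inv P Ω := fun x p hp y => by
    have : (∃ k ∈ P, k • x = p • y) ↔ ∃ k ∈ P, k • x = y :=
      ⟨fun ⟨k, hk, e⟩ => ⟨p⁻¹ * k, P.mul_mem (P.inv_mem hp) hk, by rw [mul_smul, e, inv_smul_smul]⟩,
        fun ⟨k, hk, e⟩ => ⟨p * k, P.mul_mem hp hk, by rw [mul_smul, e]⟩⟩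
    simp only [ind, this]
  have i1 : ∀ x, ind x x = 1 := fun x => if_pos ⟨1, P.one_mem, one_smul _ _⟩
  have i0 : ∀ {x y}, (¬ ∃ p ∈ P, p • x = y) → ind x y = 0 ∧ ind y x = 0 := fun {x y} h =>
    ⟨if_neg h, if_neg fun ⟨p, hp, e⟩ => h ⟨p⁻¹, P.inv_mem hp, by rw [← e, inv_smul_smul]⟩⟩
  let φ : (Fin 3 → ℂ) →ₗ[ℂ] (Ω → ℂ) := Fintype.linearCombination ℂ ![ind x, ind y, ind z]
  have hφ : ∀ c, φ c = c 0 • ind x + c 1 • ind y + c 2 • ind z := fun c => by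
    simp [φ, Fintype.linearCombination_apply, Fin.sum_univ_three]
  obtain ⟨c, hc, c0⟩ := Submodule.exists_mem_ne_zero_of_ne_bot
    (LinearMap.ker_ne_bot_of_finrank_lt (f := ((ipr a).prod (ipr b)) ∘ₗ φ) (by simp))
  have hc' : ipr a (φ c) = 0 ∧ ipr b (φ c) = 0 := Prod.mk_eq_zero.mp hc
  obtain ⟨v, hv, v0, ev⟩ := common_eig (hk P Ω)
    (inv P Ω ⊓ (LinearMap.ker (ipr a) ⊓ LinearMap.ker (ipr b))) (fun e => by
      have h1 : φ c = 0 := (Submodule.eq_bot_iff _).mp e _ ⟨by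
        rw [hφ]
        exact Submodule.add_mem _ (Submodule.add_mem _ (Submodule.smul_mem _ _ (hind x))
          (Submodule.smul_mem _ _ (hind y))) (Submodule.smul_mem _ _ (hind z)), hc'⟩
      rw [hφ] at h1
      have hx := congrFun h1 x
      have hy := congrFun h1 y
      have hz := congrFun h1 z
      simp [i1, i0 xy, i0 xz, i0 yz] at hx hy hz
      apply c0
      funext i
      fin_cases i <;> simp [hx, hy, hz])
    (fun g w hw => ⟨hk_mem _ _, hk_perp hP hw.1 ha ea hw.2.1 g, hk_perp hP hw.1 hb eb hw.2.2 g⟩)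
    fun g g' w hw => hk_comm hP g g' hw.1
  exact ⟨v, hv.1, v0, ev, og_of_eig ha ev hv.2.1, og_of_eig hb ev hv.2.2⟩

omit [Fintype P] in
theorem R3.two (h : R3 G Ω) (s : Sp U T N) {l : T →* ℂˣ} (hl : Oc Ω U T l) {P : Subgroup G}
    (hU : U ≤ P) (hT : T ≤ P) (hP : Gf P) : Two Ω P := by
  by_contra hn
  have := h.fin
  have := Fintype.ofFinite Ω
  have := Fintype.ofFinite P
  have e0 : ∀ g, ∃ c : ℂ, hk P Ω g 0 = c • (0 : Ω → ℂ) := fun g => ⟨0, by simp⟩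
  obtain ⟨a, ha, a0, ea, -, -⟩ := ex_perp hP hn (zero_mem _) (zero_mem _) e0 e0
  obtain ⟨b, hb, b0, eb, ba, -⟩ := ex_perp hP hn ha (zero_mem _) ea e0
  obtain ⟨c, hc, c0, -, ca, cb⟩ := ex_perp hP hn ha hb ea eb
  obtain ⟨d, d0, d1, d2⟩ := hl.eig s
  have od : ∀ {v}, v ∈ inv P Ω → Og G v d := fun {v} hv =>
    s.orth (hl.not_cj s) (fun u hu => hv u (hU hu))
      (fun t x => by rw [hv t (hT t.2)]; simp) d1 d2
  exact h.o4 a0 b0 c0 d0 ba.symm ca.symm (od ha) cb.symm (od hb) (od hc)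

end

end CF.Rq
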