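import Cfsg.Agent.Rq.R1

/-! Reducible maximal subgroups with at most three double cosets. -/

set_option autoImplicit false
open MulAction Module

namespace CF.Rq

open R1

variable {F V : Type*} [Field F] [Fintype F] [AddCommGroup V] [Module F V] {σ : F →+* F}
  {B : V →ₛₗ[σ] V →ₗ[F] F} {q : ℕ} {K : Subgroup (V ≃ₗ[F] V)}

theorem R0.nrm (h : Hm σ B q) {w : V} (hw : B w w ≠ 0) {k : GG B}
    (hk : k ∈ St B (Submodule.span F {w})) : ∃ c, k.1 w = c • w ∧ c * σ c = 1 := by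
  obtain ⟨c, hc⟩ := Submodule.mem_span_singleton.1 ((hk w).2 (Submodule.mem_span_singleton_self w))
  have := k.2.1 w w
  simp only [← hc, map_smul, LinearMap.map_smulₛₗ, LinearMap.smul_apply, smul_eq_mul] at this
  exact ⟨c, hc.symm, mul_right_cancel₀ hw (by linear_combination this)⟩

theorem red3 (h : Hm σ B q) {w : V} (hw : B w w ≠ 0) :
    ¬ R4 (St B (Submodule.span F {w})) := by
  have := h.fd
  have i := h.toFd.inv
  have s : σ (B w w) = B w w := (h.symm w w).symm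
  have r : ∀ {g g' : GG B}, Rl (St B (Submodule.span F {w})) g g' →
      B w (g.1 w) * σ (B w (g.1 w)) = B w (g'.1 w) * σ (B w (g'.1 w)) := by
    rintro g _ ⟨k, hk, k', hk', rfl⟩
    obtain ⟨c, h1, h2⟩ := R0.nrm h hw hk'
    obtain ⟨d, h3, h4⟩ := R0.nrm h hw hk
    have e := k.2.1 w (g.1 (k'.1 w))
    rw [h3, LinearMap.map_smulₛₗ, LinearMap.smul_apply, show B w (g.1 (k'.1 w)) = c * B w (g.1 w) by
      rw [h1, map_smul, map_smul, smul_eq_mul], smul_eq_mul] at e
    have e' := congrArg σ e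
    rw [map_mul, map_mul, i] at e'
    show _ = B w (k.1 (g.1 (k'.1 w))) * σ (B w (k.1 (g.1 (k'.1 w))))
    linear_combination -(B w (g.1 w) * σ (B w (g.1 w))) * h2 - σ c * σ (B w (g.1 w)) * e -
      σ d * B w (k.1 (g.1 (k'.1 w))) * e' +
      B w (k.1 (g.1 (k'.1 w))) * σ (B w (k.1 (g.1 (k'.1 w)))) * h4
  obtain ⟨z, f, zz, ff, zf, p⟩ := h.hyp (Submodule.span F {w}) (by
    have := h.dim
    have := finrank_span_le_card (R := F) ({w} : Set V)
    simp only [Set.toFinset_singleton, Finset.card_singleton] at this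
    omega)
  obtain ⟨zw, fw⟩ := p w (Submodule.mem_span_singleton_self w)
  have ex : ∀ a : F, ∃ g : GG B, B w (g.1 w) = a * B w w ∧ g.1 w ∉ Submodule.span F {w} := fun a => by
    obtain ⟨t, ht⟩ := h.trace (r := (1 - a * σ a) * B w w) (by
      rw [map_mul, map_sub, map_mul, i, s, map_one, mul_comm a])
    obtain ⟨g, hg⟩ := h.tr_ani hw (y := a • w + (t • z + f)) (by
      have fz : B f z = 1 := by rw [h.symm, zf, map_one]
      simp only [map_add, map_smul, LinearMap.add_apply, LinearMap.map_smulₛₗ, LinearMap.smul_apply,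
        zz, ff, zf, fz, zw, fw, h.refl zw, h.refl fw, smul_eq_mul]
      linear_combination ht)
    refine ⟨g, by simp [hg, h.refl zw, h.refl fw], fun e => ?_⟩
    simpa [hg, zw, zz, zf] using (p _ e).1
  obtain ⟨t, t1, t2, t3⟩ := h.ex_fix
  obtain ⟨a, ha⟩ := h.norm t1
  obtain ⟨g0, a0, b0⟩ := ex 0
  obtain ⟨g1, a1, b1⟩ := ex 1
  obtain ⟨g2, a2, b2⟩ := ex a
  have m := Submodule.mem_span_singleton_self (R := F) w
  have hw' := mul_ne_zero hw hw
  refine not_r4 (a := 1) (of_mem (fun v hv _ => hv) m m b0) (of_mem (fun v hv _ => hv) m m b1)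
    (of_mem (fun v hv _ => hv) m m b2) (fun e => ?_) (fun e => ?_) fun e => ?_ <;>
    have := r e <;> simp only [a0, a1, a2, map_mul, s, map_one] at this
  · exact hw' (by linear_combination -this)
  · exact mul_ne_zero t2 hw' (by linear_combination -this - B w w * B w w * ha)
  · exact mul_ne_zero (sub_ne_zero.2 t3) hw' (by linear_combination -this - B w w * B w w * ha)

theorem red4 (h : Hm σ B q) {x : V} (x0 : x ≠ 0) (hx : B x x = 0) :
    (St B (Submodule.span F {x})).index * (Fintype.card F - 1) + 1 =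
      Nat.card {v : V // B v v = 0} := by
  have := h.finV
  have le : stabilizer (GG B) x ≤ St B (Submodule.span F {x}) := fun g hg v => by
    have hg : g.1 x = x := hg
    simp only [Submodule.mem_span_singleton]
    refine exists_congr fun a => ?_
    rw [← g.1.injective.eq_iff (a := a • x) (b := v), map_smul, hg]
  have h1 : orbit (GG B) x = {v | B v v = 0} \ {0} := by
    ext v
    constructor
    · rintro ⟨g, rfl⟩
      exact ⟨(g.2.1 x x).trans hx, fun e => x0 (g.1.map_eq_zero_iff.1 e)⟩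
    · exact fun hv => h.tr_iso x0 hv.2 hx hv.1
  have h2 : orbit (St B (Submodule.span F {x})) x = Set.range fun c : Fˣ => (c : F) • x := by
    ext v
    constructor
    · rintro ⟨g, rfl⟩
      obtain ⟨c, hc⟩ := Submodule.mem_span_singleton.1
        ((g.2 x).2 (Submodule.mem_span_singleton_self x))
      refine ⟨Units.mk0 c ?_, hc⟩
      rintro rfl
      exact x0 (g.1.1.map_eq_zero_iff.1 (by rw [← hc, zero_smul]))
    · rintro ⟨c, rfl⟩
      obtain ⟨g, hg⟩ := h.tr_iso (y := (c : F) • x) x0 (smul_ne_zero c.ne_zero x0) hx (by simp [hx])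
      refine ⟨⟨g, fun v => ?_⟩, hg⟩
      simp only [Submodule.mem_span_singleton]
      constructor
      · rintro ⟨a, ha⟩
        exact ⟨a / c, g.1.injective (by
          rw [map_smul, hg, smul_smul, div_mul_cancel₀ _ c.ne_zero, ha])⟩
      · rintro ⟨a, rfl⟩
        exact ⟨a * c, by rw [map_smul, hg, smul_smul]⟩
  have h3 := Subgroup.relIndex_mul_index le
  have h4 : (stabilizer (GG B) x).relIndex (St B (Submodule.span F {x})) = Fintype.card F - 1 := by
    classical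
    rw [← Fintype.card_units, ← Nat.card_eq_fintype_card, ← Nat.card_range_of_injective
      (f := fun c : Fˣ => (c : F) • x) (fun a b e => Units.ext (smul_left_injective F x0 e)), ← h2,
      Nat.card_coe_set_eq, ← index_stabilizer]
    rfl
  rw [h4, index_stabilizer, h1, mul_comm] at h3
  rw [h3, Set.ncard_sdiff_singleton_add_one (by simp), ← Nat.card_coe_set_eq]
  rfl

theorem red0 (h : Hm σ B q) {H : Subgroup (GG B)} (hH : IsCoatom H) (r4 : R4 H)
    {Y : Submodule F V} (h0 : Y ≠ ⊥) (h1 : Y ≠ ⊤) (hY : ∀ k ∈ H, ∀ v ∈ Y, k.1 v ∈ Y) :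
    ∃ x, x ≠ 0 ∧ B x x = 0 ∧ H = St B (Submodule.span F {x}) := by
  have := h.fd
  have st : ∀ {Z : Submodule F V}, (∀ k ∈ H, ∀ v ∈ Z, k.1 v ∈ Z) → H ≤ St B Z :=
    fun hZ k hk v => ⟨fun e => by simpa using hZ _ (inv_mem hk) _ e, hZ k hk v⟩
  have r : ∀ {Z : Submodule F V}, (∀ k ∈ H, ∀ v ∈ Z, k.1 v ∈ Z) → R4 (St B Z) := fun hZ g => by
    obtain ⟨i, j, e, k, hk, k', hk', e'⟩ := r4 g
    exact ⟨i, j, e, k, st hZ hk, k', st hZ hk', e'⟩
  have hP : ∀ k ∈ H, ∀ v ∈ Pp B Y, k.1 v ∈ Pp B Y := fun k hk v hv y hy => by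
    rw [← hv _ (hY _ (inv_mem hk) y hy), ← k.2.1 _ v]
    simp
  have one : ∀ Z : Submodule F V, Z ≠ ⊥ → ¬ 2 ≤ finrank F Z → ∃ x, x ≠ 0 ∧ Z = Submodule.span F {x} :=
    fun Z z0 z2 => by
      obtain ⟨x, hx, x0⟩ := (Submodule.ne_bot_iff Z).1 z0
      refine ⟨x, x0, (Submodule.eq_of_le_of_finrank_le ((Submodule.span_singleton_le_iff_mem _ _).2 hx)
        ?_).symm⟩
      rw [finrank_span_singleton x0]; omega
  have ani : ∀ {Z : Submodule F V}, (∀ k ∈ H, ∀ v ∈ Z, k.1 v ∈ Z) → Z ≠ ⊥ → Z ⊓ Pp B Z = ⊥ →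
      2 ≤ finrank F Z := fun {Z} hZ z0 nd => by
    by_contra z2
    obtain ⟨x, x0, rfl⟩ := one Z z0 z2
    refine red3 h (fun e => x0 ((Submodule.eq_bot_iff _).1 nd x
      ⟨Submodule.mem_span_singleton_self x, fun y hy => ?_⟩)) (r hZ)
    obtain ⟨a, rfl⟩ := Submodule.mem_span_singleton.1 hy
    simp [e]
  by_cases nd : Y ⊓ Pp B Y = ⊥
  · refine (red2 h nd (ani hY h0 nd) (ani hP (fun e => h1 ?_) (by rw [h.Pp_Pp, inf_comm, nd]))
      (r hY)).elim
    have := h.finrank_Pp Y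
    rw [e, finrank_bot, zero_add] at this
    exact Submodule.eq_top_of_finrank_eq this
  have hR : ∀ k ∈ H, ∀ v ∈ Y ⊓ Pp B Y, k.1 v ∈ Y ⊓ Pp B Y := fun k hk v hv =>
    ⟨hY k hk v hv.1, hP k hk v hv.2⟩
  have ti : Y ⊓ Pp B Y ≤ Pp B (Y ⊓ Pp B Y) := fun v hv y hy => hv.2 y hy.1
  obtain ⟨x, x0, e⟩ := one _ nd fun e => red1 h ti e (r hR)
  rw [e] at hR ti
  have m := Submodule.mem_span_singleton_self (R := F) x
  refine ⟨x, x0, ti m x m, ((hH.le_iff.1 (st hR)).resolve_left fun t => ?_).symm⟩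
  obtain ⟨f, ff, xf⟩ := h.partner x0 (ti m x m)
  obtain ⟨g, hg⟩ := h.tr_iso (y := f) x0 (by rintro rfl; simp at xf) (ti m x m) ff
  have := ti (((t ▸ Subgroup.mem_top g : g ∈ St B _) x).2 m) x m
  rw [hg, xf] at this
  exact one_ne_zero this

end CF.Rq
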