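import Cfsg.Agent.Rq.TA1
import Cfsg.Agent.Rq.WT

/-! Rank 3 actions of unitary groups: transfer to the geometry. -/

set_option autoImplicit false
open MulAction Module

namespace CF.Rq

variable {F V : Type*} [Field F] [Fintype F] [AddCommGroup V] [Module F V] {σ : F →+* F}
  {B : V →ₛₗ[σ] V →ₗ[F] F} {q : ℕ} {n : ℕ} {e : ℕ → V} {Ω : Type*} [MulAction (GG B) Ω]

omit [Fintype F] in
theorem TA.Fl2 : Fl F e 2 = Submodule.span F {e 0, e 1} := by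
  rw [Fl, ← Set.image_pair]
  congr 2
  ext i
  simp only [Set.mem_Iio, Set.mem_insert_iff, Set.mem_singleton_iff]
  omega

theorem TA.ln (h : Hm σ B q) (b : Fb B n e) {x y : V} (t : Ti2 B x y) :
    ∃ (g : GG B) (c : Fˣ), g.1 (e 0) = (c : F) • x ∧ g.1 (e 1) = y := by
  have hn := b.n6 h
  obtain ⟨g, c, k⟩ := b.wt h 2 (by omega) (fun i => if i = 0 then x else y)
    (by convert L2.li2.2 t.li using 1; ext i; fin_cases i <;> simp) fun i _ j _ => by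
      split_ifs
      exacts [t.xx, t.xy, h.refl t.xy, t.yy]
  exact ⟨g, c, by simpa using k 0 (by omega), by simpa using k 1 (by omega)⟩

theorem TA.ln' (h : Hm σ B q) (b : Fb B n e) {x y : V} (t : Ti2 B x y) :
    ∃ g : GG B, ∀ v, g.1 v ∈ Submodule.span F {x, y} ↔ v ∈ Fl F e 2 := by
  obtain ⟨g, c, h1, h2⟩ := ln h b t
  refine ⟨g, fun v => ?_⟩
  simp only [Fl2, Submodule.mem_span_pair]
  refine ⟨fun ⟨r, s, k⟩ => ⟨r * (c : F)⁻¹, s, g.1.injective ?_⟩, fun ⟨r, s, k⟩ => ⟨r * c, s, ?_⟩⟩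
  · simp [← k, h1, h2, smul_smul]
  · simp [← k, h1, h2, smul_smul]

theorem Fb.fr (h : Hm σ B q) (b : Fb B n e) {Γ : Subgroup Fˣ} (av : Av3 B n e Ω Γ) (ω : Ω) :
    FR B (Kw B ω) Γ := fun x y z t => by
  have hn := b.n6 h
  obtain ⟨g, c, k⟩ := b.wt h 3 (by omega) (fun i => if i = 0 then x else if i = 1 then y else z)
    (Fintype.linearIndependent_iff.2 fun s hs i => by
      have := t.li (s 0) (s 1) (s 2) (by simpa [Fin.sum_univ_three] using hs)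
      fin_cases i
      exacts [this.1, this.2.1, this.2.2]) fun i _ j _ => by
      split_ifs
      exacts [t.xx, t.xy, t.xz, h.refl t.xy, t.yy, t.yz, h.refl t.xz, h.refl t.yz, t.zz]
  have k0 : g.1 (e 0) = (c : F) • x := by simpa using k 0 (by omega)
  have k1 : g.1 (e 1) = y := by simpa using k 1 (by omega)
  have k2 : g.1 (e 2) = z := by simpa using k 2 (by omega)
  obtain ⟨u, hu, tf⟩ := b.tf h (g⁻¹ • ω)
  obtain ⟨u0, u1⟩ := b.U_zero h (inv_mem hu)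
  obtain ⟨r, s, u2⟩ := Submodule.mem_span_pair.1
    (TA.Fl2 (F := F) (e := e) ▸ (b.mem_Uu h).1 (inv_mem hu) 2 (by omega))
  refine ⟨B (e (n - 1)) (u⁻¹.1 (e 1)) * c, r * c, s, fun α hα β hβ γ hγ k3 => ?_⟩
  obtain ⟨d, d1, d2⟩ := av α hα β hβ γ hγ k3
  have d3 : ∀ i < 3, (g * u⁻¹ * d * (u * g⁻¹)).1 (g.1 (u⁻¹.1 (e i))) =
      (v3 α β γ i : F) • g.1 (u⁻¹.1 (e i)) := fun i hi => by
    simp only [Subgroup.coe_mul, LinearEquiv.mul_apply, UT.apply_inv, UT.inv_apply,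
      ((d1 i).1 (by omega)).1, map_smul]
  refine ⟨_, (mem_Kw (g := g * u⁻¹ * d * (u * g⁻¹))).2 ?_, ?_, ?_, ?_⟩
  · rw [mul_smul, mul_smul, mul_smul u, tf d d1.mem (d2 _), mul_smul, inv_smul_smul, smul_inv_smul]
  · have := d3 0 (by omega)
    rw [u0, k0, map_smul, smul_comm] at this
    exact smul_right_injective V c.ne_zero this
  · have := d3 1 (by omega)
    rwa [u1, map_add g.1, map_smul g.1, k0, k1, smul_smul] at this
  · have := d3 2 (by omega)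
    rwa [← eq_sub_iff_add_eq'.1 u2, map_add g.1, map_add g.1, map_smul g.1, map_smul g.1, k0, k1,
      k2, smul_smul, ← add_assoc] at this

theorem Fb.twoL (h : Hm σ B q) (b : Fb B n e) (tw : Two Ω (St B (Fl F e 2))) (ω : Ω) :
    TwoL B (Kw B ω) := fun x₁ y₁ x₂ y₂ x₃ y₃ t₁ t₂ t₃ => by
  have k : ∀ {x y x' y' : V} {g g' : GG B}, (∀ v, g.1 v ∈ Submodule.span F {x, y} ↔ v ∈ Fl F e 2) →
      (∀ v, g'.1 v ∈ Submodule.span F {x', y'} ↔ v ∈ Fl F e 2) →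
      (∃ p ∈ St B (Fl F e 2), p • g⁻¹ • ω = g'⁻¹ • ω) → Eql (Kw B ω) x y x' y' :=
    fun {x y x' y' g g'} a a' ⟨p, hp, c⟩ => ⟨(g' * p * g⁻¹).1,
      mem_Kw.2 (by rw [mul_smul, mul_smul, c, smul_inv_smul]), fun v => by
        simp only [Subgroup.coe_mul, LinearEquiv.mul_apply]
        rw [a', hp, ← a, UT.inv_apply]⟩
  obtain ⟨g₁, h₁⟩ := TA.ln' h b t₁
  obtain ⟨g₂, h₂⟩ := TA.ln' h b t₂
  obtain ⟨g₃, h₃⟩ := TA.ln' h b t₃
  exact (tw _ _ _).imp (k h₁ h₂) (Or.imp (k h₁ h₃) (k h₂ h₃))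

theorem Fb.hu (h : Hm σ B q) (b : Fb B n e) (hg : ∀ ω : Ω, Gd B n e ω) (ω : Ω) :
    HU B (Kw B ω) := fun x y t => by
  obtain ⟨g, c, k0, k1⟩ := TA.ln h b t
  obtain ⟨u, hu, h1, h2⟩ := hg (g⁻¹ • ω)
  obtain ⟨u0, u1⟩ := b.U_zero h hu
  have k : ∀ v, (g * u * g⁻¹).1 (g.1 v) = g.1 (u.1 v) := fun v => by
    simp only [Subgroup.coe_mul, LinearEquiv.mul_apply, UT.apply_inv]
  refine ⟨(g * u * g⁻¹).1, mem_Kw.2 (by rw [mul_smul, mul_smul, h1, smul_inv_smul]),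
    B (e (n - 1)) (u.1 (e 1)) * c, mul_ne_zero (fun a => h2 (by rw [u1, a]; simp)) c.ne_zero,
    smul_right_injective V c.ne_zero ?_, ?_⟩
  · simpa only [u0, k0, map_smul] using k (e 0)
  · rw [← smul_smul, ← k0, ← k1, k, ← map_smul, ← map_add, ← u1]

end CF.Rq
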