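import Cfsg.Agent.Rq.XC1

/-! Rank 3 actions of unitary groups: `q = 3` with a transitive Borel subgroup. -/

set_option autoImplicit false
open MulAction Module

namespace CF.Rq

variable {F V : Type*} [Field F] [Fintype F] [AddCommGroup V] [Module F V] {σ : F →+* F}
  {B : V →ₛₗ[σ] V →ₗ[F] F} {q : ℕ} {n : ℕ} {e : ℕ → V} {Ω : Type*} [MulAction (GG B) Ω]

namespace XC

theorem av_mul (h : Hm σ B q) (b : Fb B n e) {τ τ' : ℕ → Fˣ} (k : Av B n e Ω τ)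
    (k' : Av B n e Ω τ') : Av B n e Ω (τ * τ') := by
  obtain ⟨t, h1, h2, h3⟩ := (av_iff h b).1 k
  obtain ⟨t', h1', h2', h3'⟩ := (av_iff h b).1 k'
  exact (av_iff h b).2 ⟨t * t', mul_mem h1 h1', fun i hi => by simp [h2 i hi, h2' i hi],
    fun i hi => by simp [h3 i hi, h3' i hi]⟩

theorem av_pw (h : Hm σ B q) (b : Fb B n e) {x : Fˣ} (k : Av B n e Ω (v3 x x⁻¹ 1)) (j : ℕ) :
    Av B n e Ω (v3 (x ^ j) (x ^ j)⁻¹ 1) := by
  obtain ⟨t, h1, h2, h3⟩ := (av_iff h b).1 k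
  refine (av_iff h b).2 ⟨t ^ j, pow_mem h1 j, fun i hi => ?_, fun i hi => by simp [h3 i hi]⟩
  rw [map_pow, h2 i hi, v3, v3]
  split_ifs <;> simp

theorem p8 (h : Fd σ 3) (x : Fˣ) : x ^ 8 = 1 := by
  obtain ⟨w, h1, h2⟩ := h.gen8
  obtain ⟨i, rfl⟩ := h2 x
  rw [← pow_mul, mul_comm, pow_mul, ← h1, pow_orderOf_eq_one, one_pow]

theorem caseA (h : Hm σ B 3) (b : Fb B n e) (bt : Btr Ω (Uu B n e) (Tt B n e)) {w : Fˣ}
    (h1 : orderOf w = 8) (h2 : ∀ x : Fˣ, ∃ i : ℕ, x = w ^ i)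
    (k : Av B n e Ω (v3 (w ^ 2) (w ^ 2)⁻¹ 1)) : Av3 B n e Ω (Mu σ) := by
  have hn := b.n6 h
  have k1 : ∀ a ∈ Mu σ, Av B n e Ω (v3 a a⁻¹ 1) := fun a ha => by
    obtain ⟨i, rfl⟩ := h2 a
    have h3 : w ^ (i * 4) = 1 := Units.ext (by
      refine .trans ?_ (show _ = (1 : F) from ha)
      rw [h.pow, pow_mul]; push_cast; ring)
    rw [← orderOf_dvd_iff_pow_eq_one, h1] at h3
    obtain ⟨j, rfl⟩ : 2 ∣ i := by omega
    rw [pow_mul]
    exact av_pw h b k j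
  intro x hx y _ z hz k2
  obtain ⟨t, h3, h4, h5⟩ := (av_iff h b).1 (k1 z hz)
  obtain ⟨s, h6, h7, h8⟩ := sw h b bt (x := 0) (y := 2) (by omega) (by omega) h3
  obtain ⟨r, h9, h10, h11⟩ := (av_iff h b).1 (k1 x hx)
  refine (av_iff h b).2 ⟨r * s, mul_mem h9 h6, fun i hi => ?_, fun i hi => by
    simp [h11 i hi, h8 i hi, h5 i hi]⟩
  rw [map_mul, h10 i hi, h7 i hi, h4 _ (by rw [Equiv.swap_apply_def]; split_ifs <;> omega),
    Equiv.swap_apply_def]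
  obtain rfl : y = x⁻¹ * z⁻¹ := by
    rw [← mul_inv, eq_inv_iff_mul_eq_one, ← k2]; ac_rfl
  rcases (by omega : i = 0 ∨ i = 1 ∨ i = 2 ∨ i ≠ 0 ∧ i ≠ 1 ∧ i ≠ 2) with c | c | c | c <;>
    simp [v3, c]

theorem caseB (h : Hm σ B 3) (b : Fb B n e) (bt : Btr Ω (Uu B n e) (Tt B n e)) {w : Fˣ}
    (h1 : orderOf w = 8) (h2 : ∀ x : Fˣ, ∃ i : ℕ, x = w ^ i)
    (k : ¬ Av B n e Ω (v3 (w ^ 2) (w ^ 2)⁻¹ 1)) {t : Tt B n e} (ht : t ∈ RR b Ω h) {a : ℕ}
    (ha : a < n / 2) : co b a t ^ 2 = co b 0 t ^ 2 := by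
  have hn := b.n6 h
  have k1 : ∀ t ∈ RR b Ω h, co b 1 t ^ 2 = co b 0 t ^ 2 := fun t ht => by
    obtain ⟨s, h6, h7, h8⟩ := sw h b bt (x := 0) (y := 1) (by omega) (by omega) ht
    obtain ⟨i, hi⟩ := h2 (co b 0 t / co b 1 t)
    have k2 : Av B n e Ω (v3 (w ^ i) (w ^ i)⁻¹ 1) :=
      (av_iff h b).2 ⟨t * s⁻¹, mul_mem ht (inv_mem h6), fun j hj => by
        rw [map_mul, map_inv, h7 j hj, ← hi, Equiv.swap_apply_def, v3]
        split_ifs <;> subst_vars <;> simp [div_eq_mul_inv], fun j hj => by simp [h8 j hj]⟩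
    by_contra k3
    obtain ⟨j, -, hj⟩ := (by decide : ∀ i < 8, i * 2 % 8 ≠ 0 → ∃ j < 8, i * j % 8 = 2) (i % 8)
      (by omega) fun k4 => k3 (by
        rw [eq_comm, ← div_eq_one, ← div_pow, hi, ← pow_mul, ← orderOf_dvd_iff_pow_eq_one, h1]
        omega)
    have k4 := av_pw h b k2 j
    rw [← pow_mul, ← pow_mod_orderOf, h1, ← Nat.mod_mul_mod, hj] at k4
    exact k k4
  rcases eq_or_ne a 0 with rfl | h0
  · rfl
  obtain ⟨s, h6, h7, -⟩ := sw h b bt (x := 1) (y := a) (by omega) ha ht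
  have := k1 s h6
  rwa [h7 1 (by omega), h7 0 (by omega), Equiv.swap_apply_left,
    Equiv.swap_apply_of_ne_of_ne (by omega) h0.symm] at this

theorem fold (h : Hm σ B 3) (b : Fb B n e) {a : ℕ} (ha : a < n) (t : Tt B n e) :
    co b a t ^ 2 = co b (min a (n - 1 - a)) t ^ 2 := by
  rcases min_choice a (n - 1 - a) with k | k <;> rw [k]
  have k1 : co b (n - 1 - a) t * co b a t ^ 3 = 1 := Units.ext (by
    refine .trans ?_ (co_rev h b ha t)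
    rw [h.pow]; simp)
  rw [eq_inv_of_mul_eq_one_left k1, eq_comm, inv_pow, inv_eq_iff_mul_eq_one, ← pow_mul, ← pow_add,
    p8 h.toFd]

theorem occ (h : Hm σ B 3) (b : Fb B n e) (ι : Fˣ →* ℂˣ) {k : ℕ} {l : Tt B n e →* ℂˣ}
    (c : Cj (Tt B n e) (Nn B n e) (ι.comp ((co b 0 ^ 2 * co b 1 ^ 6) ^ k)) l) :
    ∃ x < n / 2, ∃ y < n / 2, ∀ t, l t = ι ((co b x t ^ 2 * co b y t ^ 6) ^ k) := by
  have hn := b.n6 h
  obtain ⟨ν, hν, c⟩ := c
  obtain ⟨x, hx, cx, ex⟩ := (hν 0 (by omega)).1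
  obtain ⟨y, hy, cy, ey⟩ := (hν 1 (by omega)).1
  have h1 := nb b (by omega) (by omega) hx hx ex ex
  have h2 := nb b (by omega) (by omega) hy hy ey ey
  refine ⟨min x (n - 1 - x), by omega, min y (n - 1 - y), by omega, fun t => ?_⟩
  rw [c ⟨_, (b.sp h).nT ν hν t t.2⟩ t rfl, show 6 = 2 * 3 from rfl, pow_mul (co b _ t),
    ← fold h b hx, ← fold h b hy, ← pow_mul]
  simp only [MonoidHom.comp_apply, MonoidHom.pow_apply, MonoidHom.mul_apply]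
  rw [co_conj b (by omega) hx ex rfl, co_conj b (by omega) hy ey rfl]

/-- exponents of the test elements -/
def xp (d i : ℕ) : ℕ := (if i = 0 then 1 else 0) + if i = d then 7 else 0

theorem ar {m x y k : ℕ} (h3 : 3 ≤ m) (hx : x < m) (hy : y < m) (hk : k < 3)
    (l : ∀ d < m, (xp d 0 * 4 + xp d 1 * 6 + xp d 2 * 6) % 8 = (xp d x * 2 + xp d y * 6) * k % 8) :
    m = 4 := by
  by_contra c
  by_cases c3 : m = 3
  · subst c3
    exact (by decide : ∀ x < 3, ∀ y < 3, ∀ k < 3, ¬ ∀ d < 3, (xp d 0 * 4 + xp d 1 * 6 +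
      xp d 2 * 6) % 8 = (xp d x * 2 + xp d y * 6) * k % 8) x hx y hy k hk l
  have a : ∀ x, ∀ d < 5, xp d x = xp d (min x 5) := fun x d hd => by
    unfold xp; split_ifs <;> omega
  exact (by decide : ∀ x < 6, ∀ y < 6, ∀ k < 3, ¬ ∀ d < 5, (xp d 0 * 4 + xp d 1 * 6 +
    xp d 2 * 6) % 8 = (xp d x * 2 + xp d y * 6) * k % 8) (min x 5) (by omega) (min y 5) (by omega)
    k hk fun d hd => by rw [← a x d hd, ← a y d hd]; exact l d (by omega)

theorem tst (h : Hm σ B 3) (b : Fb B n e) (w : Fˣ) {d : ℕ} (hd : d < n / 2) :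
    ∃ t, ∀ i < n / 2, co b i t = w ^ xp d i := by
  obtain ⟨t, ht⟩ := b.exists_dg h (fun i => w ^ xp d i) (by
      simp only [xp]
      rw [Finset.prod_pow_eq_pow_sum, Finset.sum_add_distrib, Finset.sum_ite_eq',
        Finset.sum_ite_eq', if_pos (by simp; omega), if_pos (by simpa), p8 h.toFd]
      simp)
  exact ⟨_, fun i hi => co_dg b ht hi⟩

theorem xc (h : Hm σ B 3) (b : Fb B n e) (r : R3 (GG B) Ω)
    (bt : Btr Ω (Uu B n e) (Tt B n e)) : Av3 B n e Ω (Mu σ) ∨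
      (Sd B n e Ω ∧ ∃ ρ, Av B n e Ω ρ ∧ ρ 1 = ρ 2 ∧ ρ 0 ≠ ρ 1) := by
  classical
  have := h.finG
  have hn := b.n6 h
  obtain ⟨w, h1, h2⟩ := h.gen8
  by_cases k : Av B n e Ω (v3 (w ^ 2) (w ^ 2)⁻¹ 1)
  · exact .inl (caseA h b bt h1 h2 k)
  right
  have k0 := @caseB _ _ _ _ _ _ _ _ _ _ Ω _ h b bt w h1 h2 k
  have w4 : w ^ 4 ≠ 1 := by rw [Ne, ← orderOf_dvd_iff_pow_eq_one, h1]; omega
  obtain ⟨ι, hι⟩ := CommGroup.exists_apply_ne_one_of_hasEnoughRootsOfUnity Fˣ ℂ w4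
  have h3 : orderOf (ι w) = 8 := orderOf_eq_prime_pow (p := 2) (n := 2) (by rwa [← map_pow])
    (by rw [← map_pow]; exact (congrArg ι (p8 h.toFd w)).trans (map_one ι))
  obtain ⟨ω, -⟩ := r.rk
  have oc : ∀ φ : Tt B n e →* Fˣ, (∀ t ∈ RR b Ω h, φ t = 1) → (∃ t i, φ t = w ^ i ∧ ¬ 8 ∣ i) →
      Oc Ω (Uu B n e) (Tt B n e) (ι.comp φ) := fun φ a ⟨t, i, a1, a2⟩ =>
    ⟨fun c => a2 (by
      rw [← h3, orderOf_dvd_iff_pow_eq_one, ← map_pow, ← a1]; exact DFunLike.congr_fun c t),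
      ω, fun t ht => by simp [a t (rr_of h b bt ht)]⟩
  have k6 : ∀ t ∈ RR b Ω h, ∀ a < n / 2, co b a t ^ 6 = co b 0 t ^ 6 := fun t ht a ha => by
    rw [show 6 = 2 * 3 from rfl, pow_mul, k0 ht ha, pow_mul]
  have oc1 : ∀ k, ¬ 8 ∣ 2 * k → Oc Ω (Uu B n e) (Tt B n e)
      (ι.comp ((co b 0 ^ 2 * co b 1 ^ 6) ^ k)) := fun k hk => oc _ (fun t ht => by
        simp [k6 t ht 1 (by omega), ← pow_add, p8 h.toFd]) (by
      obtain ⟨t, ht⟩ := tst h b w (d := 2) (by omega)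
      exact ⟨t, _, by simp [ht 0 (by omega), ht 1 (by omega), pow_mul, xp], hk⟩)
  have all : ∀ l, Oc Ω (Uu B n e) (Tt B n e) l → ∃ k < 3, ∃ x < n / 2, ∃ y < n / 2,
      ∀ t, l t = ι ((co b x t ^ 2 * co b y t ^ 6) ^ k) := fun l hl => by
    rcases r.three (b.sp h) (oc1 1 (by omega)) (oc1 2 (by omega)) hl with c | c | c
    · refine absurd ?_ (oc1 2 (by omega)).1
      have c1 : ι.comp ((co b 0 ^ 2 * co b 1 ^ 6) ^ 1) ^ 2 = 1 := by
        rw [← orderOf_dvd_iff_pow_eq_one, c.order (b.sp h), orderOf_dvd_iff_pow_eq_one]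
        ext t
        simp only [MonoidHom.comp_apply, MonoidHom.pow_apply, MonoidHom.mul_apply]
        rw [← map_pow, ← pow_mul, show 6 = 3 * 2 from rfl, pow_mul (co b 1 t), ← mul_pow,
          ← pow_mul, p8 h.toFd]
        simp
      rw [← c1]; ext t; simp
    · exact ⟨1, by omega, occ h b ι c⟩
    · exact ⟨2, by omega, occ h b ι c⟩
  have av : ∀ τ : ℕ → Fˣ, (∀ i, τ i ^ 2 = τ 0 ^ 2) → (∏ i ∈ Finset.range (n / 2), τ i) ^ 2 = 1 →
      Av B n e Ω τ := fun τ a1 a2 => by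
    obtain ⟨t, ht⟩ := b.exists_dg h τ (by
      rw [h.pow, ← Units.val_pow_eq_pow_val, pow_succ, a2, one_mul])
    refine ⟨t, ht, rr_of h b bt (ω := ω) (t := ⟨t, ht.mem⟩) ?_⟩
    by_contra c
    obtain ⟨l, l1, l2⟩ := (b.sp h).sep ω c
    obtain ⟨k, -, x, hx, y, hy, l3⟩ := all l ⟨fun c => l2 (by simp [c]), ω, l1⟩
    refine l2 ?_
    rw [l3, co_dg b ht hx, co_dg b ht hy, show 6 = 2 * 3 from rfl, pow_mul, a1 x, a1 y, ← pow_mul,
      ← pow_add, p8 h.toFd, one_pow, map_one]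
  have m4 : n / 2 = 4 := by
    obtain ⟨k, hk, x, hx, y, hy, l3⟩ := all _ (oc (co b 0 ^ 4 * co b 1 ^ 6 * co b 2 ^ 6)
      (fun t ht => by
        simp only [MonoidHom.pow_apply, MonoidHom.mul_apply, k6 t ht 1 (by omega),
          k6 t ht 2 (by omega), ← pow_add]
        rw [show 4 + 6 + 6 = 8 * 2 from rfl, pow_mul, p8 h.toFd, one_pow]) (by
        obtain ⟨t, ht⟩ := tst h b w (d := 2) (by omega)
        exact ⟨t, 46, by simp [ht 0 (by omega), ht 1 (by omega), ht 2 (by omega), ← pow_mul,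
          ← pow_add, xp], by omega⟩))
    refine ar (by omega) hx hy hk fun d hd => ?_
    obtain ⟨t, ht⟩ := tst h b w hd
    have := l3 t
    simp only [MonoidHom.comp_apply, MonoidHom.pow_apply, MonoidHom.mul_apply, ht 0 (by omega),
      ht 1 (by omega), ht 2 (by omega), ht x hx, ht y hy, ← pow_mul, ← pow_add] at this
    rwa [map_pow, map_pow, pow_eq_pow_iff_modEq, h3] at this
  have n1 : (-1 : Fˣ) ≠ 1 := fun c => h.three.2 (by
    have := congrArg Units.val c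
    simp only [Units.val_neg, Units.val_one] at this
    linear_combination -this)
  have av1 : ∀ j < n / 2, Av B n e Ω (Pi.mulSingle j (-1)) := fun j hj => av _ (fun i => by
    simp only [Pi.mulSingle_apply]; split_ifs <;> simp) (by simp [Finset.prod_pi_mulSingle', hj])
  refine ⟨⟨⟨fun _ => w, av _ (fun _ => rfl) ?_, rfl, fun c => w4 (Units.ext ?_)⟩,
    fun i h2 hi => ⟨_, av1 i (by omega), ?_, ?_, ?_⟩, _, av1 0 (by omega), ?_, fun i hi => ?_⟩,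
    _, av1 0 (by omega), ?_, ?_⟩
  · simp [m4, ← pow_mul, p8 h.toFd]
  · refine .trans ?_ c
    rw [h.pow]; push_cast; ring
  · exact Pi.mulSingle_eq_of_ne (by omega) _
  · exact Pi.mulSingle_eq_of_ne (by omega) _
  · simpa using n1
  · simpa using n1
  · exact Pi.mulSingle_eq_of_ne (by omega) _
  · simp
  · simpa using n1

end XC

theorem Fb.xc (h : Hm σ B 3) (b : Fb B n e) (r : R3 (GG B) Ω)
    (bt : Btr Ω (Uu B n e) (Tt B n e)) : Av3 B n e Ω (Mu σ) ∨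
      (Sd B n e Ω ∧ ∃ ρ, Av B n e Ω ρ ∧ ρ 1 = ρ 2 ∧ ρ 0 ≠ ρ 1) := XC.xc h b r bt

end CF.Rq
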