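import Cfsg.Agent.Rq.AR
import Cfsg.Agent.Rq.BB
import Cfsg.Agent.Rq.BR
import Cfsg.Agent.Rq.G1
import Cfsg.Agent.Rq.GN
import Cfsg.Agent.Rq.M2
import Cfsg.Agent.Rq.P2
import Cfsg.Agent.Rq.P3
import Cfsg.Agent.Rq.PG
import Cfsg.Agent.Rq.R0
import Cfsg.Agent.Rq.TA
import Cfsg.Agent.Rq.WT
import Cfsg.Agent.Rq.XC

/-! Rank 3 actions of unitary groups: assembly. -/

set_option autoImplicit false
open MulAction Module

namespace CF.Rq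

variable {F V : Type*} [Field F] [Fintype F] [AddCommGroup V] [Module F V] {σ : F →+* F}
  {B : V →ₛₗ[σ] V →ₗ[F] F} {q : ℕ} {n : ℕ} {e : ℕ → V} {Ω : Type*} [MulAction (GG B) Ω]

/-! ## Main -/
theorem Mn.fin (h : Hm σ B q) (r : R3 (GG B) Ω) (pr : IsPreprimitive (GG B) Ω)
    (fa : ∀ g : GG B, (∀ ω : Ω, g • ω = ω) → g ∈ Subgroup.center (GG B)) (ω : Ω)
    (hω : (∀ x, x ≠ 0 → B x x = 0 → Full B (Kw B ω) x) ∨
      ∃ Y : Submodule F V, Y ≠ ⊥ ∧ Y ≠ ⊤ ∧ ∀ k ∈ Kw B ω, ∀ v ∈ Y, k v ∈ Y) :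
    Nat.card Ω * (Fintype.card F - 1) + 1 = Nat.card {v : V // B v v = 0} := by
  have := h.finG
  have := r.tr
  have := r.fin
  rcases hω with hf | ⟨Y, h0, h1, hY⟩
  · exfalso
    obtain ⟨c, c0, hc⟩ := h.toFd.ex_skew
    have := h.fd
    obtain ⟨x, -, x0, hx⟩ := h.ex_iso ⊤ (by rw [finrank_top]; have := h.dim; omega)
    obtain ⟨y, hy, hxy⟩ := h.partner x0 hx
    obtain ⟨s, hs⟩ := h.exists_tv hx hc
    obtain ⟨t, ht⟩ := h.exists_tv hy hc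
    have hz := fa s fun ω' => by
      obtain ⟨g, rfl⟩ := exists_smul_eq (GG B) ω ω'
      obtain ⟨k, hk, e⟩ := (hf (g⁻¹.1 x) (by simpa using x0) (by rw [g⁻¹.2.1, hx])).2.2 c hc
      have h2 : k = (g⁻¹ * s * g).1 := by
        ext v
        have h3 : B (g⁻¹.1 x) v = B x (g.1 v) := by rw [← g.2.1, UT.inv_apply]
        rw [e, Subgroup.coe_mul, Subgroup.coe_mul, LinearEquiv.mul_apply, LinearEquiv.mul_apply,
          hs, map_add, UT.apply_inv]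
        simp only [LinearMap.smul_apply, E_apply, map_smul, h3]
      rw [h2, mem_Kw, mul_smul, mul_smul, inv_smul_eq_iff] at hk
      exact hk
    have h5 := congrArg (fun g : GG B => B x (g.1 y)) (Subgroup.mem_center_iff.1 hz t)
    have hyx : B y x = 1 := by rw [h.symm, hxy, map_one]
    simp [hs, ht, E_apply, hx, hy, hxy, hyx, c0] at h5
  · have : Nontrivial Ω := by
      obtain ⟨ω₀, h3⟩ := r.rk
      by_contra hn
      rw [not_nontrivial_iff_subsingleton] at hn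
      have := Finite.card_le_one_iff_subsingleton.2
        (inferInstance : Subsingleton (orbitRel.Quotient (stabilizer (GG B) ω₀) Ω))
      omega
    obtain ⟨x, x0, hx, e⟩ := red0 h (IsPreprimitive.isCoatom_stabilizer_of_isPreprimitive _ ω)
      (r.r4 ω) h0 h1 fun k hk v hv => hY k.1 (mem_Kw.2 hk) v hv
    rw [← red4 h x0 hx, ← e, index_stabilizer_of_transitive]

theorem Mn.caseN (h : Hm σ B q) (b : Fb B n e) [Nonempty Ω] {m : ℕ}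
    (hm : ∀ ω : Ω, ∀ t ∈ Tt B n e, Tw (Uu B n e) ω (t ^ m)) {τ : Fˣ} (h1 : σ τ = τ)
    (h2 : τ ^ m ≠ 1) (nd : Nd σ (Pw F m)) :
    ∃ (ω : Ω) (z : V), LC B (Kw B ω) ∧ Full B (Kw B ω) z := by
  obtain ⟨sd, ρ, av, e1, e0⟩ := b.sd_pow h hm h1 h2
  obtain ⟨ω, hω⟩ := b.pg h av e1 e0
  obtain ⟨u, hu, tf⟩ := b.tf h ω
  have h3 := hω.smul h b hu (Subgroup.one_mem _)
  rw [mul_one] at h3
  obtain ⟨x, y, t, hi⟩ := b.bb h sd h3 tf
  have fr := b.fr h (b.av_pow h hm) (u • ω)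
  obtain ⟨z, hz⟩ := gn_full h (Kw_le _) nd fr t hi
  exact ⟨_, z, gn_lc h (Kw_le _) nd fr, hz⟩

theorem Mn.caseM (h : Hm σ B q) (b : Fb B n e) (r : R3 (GG B) Ω) (av : Av3 B n e Ω (Mu σ))
    {l : Tt B n e →* ℂˣ} (hl : Oc Ω (Uu B n e) (Tt B n e) l) :
    ∃ (ω : Ω) (z : V), LC B (Kw B ω) ∧ Full B (Kw B ω) z := by
  have := h.finG
  have : Nonempty Ω := ⟨r.rk.choose⟩
  obtain ⟨γ, hγ, -, h3⟩ := h.toFd.ex_mu
  obtain ⟨ω, hω⟩ := b.pg h (av _ ((Mu σ).inv_mem ((Mu σ).pow_mem hγ 2)) _ hγ _ hγ (by group))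
    (by simp [v3]) (by
      simp only [v3, if_true, one_ne_zero, if_false]
      intro e
      apply h3
      rw [inv_eq_iff_mul_eq_one] at e
      rw [← e]; group)
  obtain ⟨u, hu, tf⟩ := b.tf h ω
  have h3 := hω.smul h b hu (Subgroup.one_mem _)
  rw [mul_one] at h3
  have fr := b.fr h av (u • ω)
  obtain ⟨z, hz⟩ := m_full h (Kw_le _) fr (b.bq h av h3 tf)
  exact ⟨_, z, m_lc h (Kw_le _) fr (b.twoL h (r.two (b.sp h) hl (b.le_St h).1 (b.le_St h).2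
    (b.gf h)) _), hz⟩

omit [Fintype F] in
theorem Mn.mono {Γ Γ' : Subgroup Fˣ} (hΓ : Γ ≤ Γ') (av : Av3 B n e Ω Γ') : Av3 B n e Ω Γ :=
  fun a ha b hb c hc => av a (hΓ ha) b (hΓ hb) c (hΓ hc)

theorem main (h : Hm σ B q) (b : Fb B n e) (r : R3 (GG B) Ω) (pr : IsPreprimitive (GG B) Ω)
    (fa : ∀ g : GG B, (∀ ω : Ω, g • ω = ω) → g ∈ Subgroup.center (GG B)) :
    Nat.card Ω * (Fintype.card F - 1) + 1 = Nat.card {v : V // B v v = 0} := by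
  have := h.finG
  have : Nonempty Ω := ⟨r.rk.choose⟩
  have key : (∃ (ω : Ω) (z : V), LC B (Kw B ω) ∧ Full B (Kw B ω) z) →
      Nat.card Ω * (Fintype.card F - 1) + 1 = Nat.card {v : V // B v v = 0} :=
    fun ⟨ω, z, lc, hz⟩ => Mn.fin h r pr fa ω (g1 h (Kw_le _) lc hz)
  rcases r.out (b.sp h) with h1 | ⟨⟨l, hl⟩, p, hp, h2, h3⟩
  · obtain ⟨t, ht, t0, t1⟩ := h.toFd.ex_fix
    refine key (Mn.caseN h b (m := 1) (by simpa using h1) (τ := Units.mk0 t t0) ht ?_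
      h.toFd.nd_one)
    simpa [Units.ext_iff] using t1
  by_cases h4 : ∃ τ : Fˣ, σ τ = τ ∧ τ ^ p ^ 2 ≠ 1
  · obtain ⟨τ, h5, h6⟩ := h4
    exact key (Mn.caseN h b h2 h5 h6 (h.toFd.nd_pow hp h5 h6))
  push Not at h4
  rcases h.toFd.mu_le hp h4 with h5 | ⟨rfl, rfl⟩
  · exact key (Mn.caseM h b r (Mn.mono h5 (b.av_pow h h2)) hl)
  rcases h3 with h3 | bt
  · exact key (Mn.caseM h b r (Mn.mono h.toFd.mu_le3 (b.av_pow h h3)) hl)
  rcases b.xc h r bt with av | ⟨sd, ρ, av, e1, e0⟩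
  · exact key (Mn.caseM h b r av hl)
  obtain ⟨ω₀, hω⟩ := b.pg h av e1 e0
  have hg : ∀ ω : Ω, Gd B n e ω := fun ω => by
    obtain ⟨u, hu, t, ht, rfl⟩ := bt ω₀ ω
    exact hω.smul h b hu ht
  obtain ⟨u, hu, tf⟩ := b.tf h ω₀
  obtain ⟨x, y, t, hi⟩ := b.bb h sd (hg _) tf
  obtain ⟨z, hz⟩ := gx h (Kw_le _) (b.hu h hg _) t hi
  refine Mn.fin h r pr fa (u • ω₀) (Or.inl fun w w0 hw => ?_)
  obtain ⟨k, hk, c, c0, rfl⟩ := b.ptr h bt (u • ω₀) hz.1 w0 hz.2.1 hw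
  exact (hz.map (Kw_le _) hk).smul h c0

end CF.Rq
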