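import Cfsg.Agent.Rq.L3

/-! Stabilisers of subspaces have at least four double cosets. -/

set_option autoImplicit false
open MulAction Module

namespace CF.Rq

namespace R1

section
variable {G : Type*} [Group G] {H : Subgroup G}

/-- same double coset -/
def Rl (H : Subgroup G) (g g' : G) : Prop := ∃ k ∈ H, ∃ k' ∈ H, g' = k * g * k'

theorem Rl.symm {g g' : G} (h : Rl H g g') : Rl H g' g := by
  obtain ⟨k, hk, k', hk', rfl⟩ := h
  exact ⟨k⁻¹, inv_mem hk, k'⁻¹, inv_mem hk', by group⟩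

theorem not_r4 {a b c d : G} (ab : ¬ Rl H a b) (ac : ¬ Rl H a c) (ad : ¬ Rl H a d)
    (bc : ¬ Rl H b c) (bd : ¬ Rl H b d) (cd : ¬ Rl H c d) : ¬ R4 H := fun h => by
  obtain ⟨i, j, hij, r⟩ := h ![a, b, c, d]
  replace r : Rl H (![a, b, c, d] i) (![a, b, c, d] j) := r
  fin_cases i <;> fin_cases j
  exacts [hij rfl, ab r, ac r, ad r, ab r.symm, hij rfl, bc r, bd r, ac r.symm, bc r.symm, hij rfl,
    cd r, ad r.symm, bd r.symm, cd r.symm, hij rfl]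

end

variable {F V : Type*} [Field F] [AddCommGroup V] [Module F V] {σ : F →+* F}
  {B : V →ₛₗ[σ] V →ₗ[F] F} {q : ℕ} {Y : Submodule F V} {g g' : GG B}

/-- the vectors of `Y` that stay in `Y` -/
def D (Y : Submodule F V) (g : GG B) : Submodule F V := Y ⊓ Y.comap (g.1 : V →ₗ[F] V)

theorem mem_D {v : V} : v ∈ D Y g ↔ v ∈ Y ∧ g.1 v ∈ Y := Iff.rfl

theorem Rl.map (h : Rl (St B Y) g g') : ∃ k : GG B, ∀ v, v ∈ D Y g' ↔ k.1 v ∈ D Y g := by
  obtain ⟨k, hk, k', hk', rfl⟩ := h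
  exact ⟨k', fun v => and_congr (hk' v).symm (hk _)⟩

theorem of_lt [FiniteDimensional F V] (h : D Y g' < D Y g) : ¬ Rl (St B Y) g g' := fun r => by
  obtain ⟨k, hk⟩ := r.map
  have : D Y g = (D Y g').map (k.1 : V →ₗ[F] V) := by
    ext v
    obtain ⟨v, rfl⟩ := k.1.surjective v
    rw [← hk]
    exact (Submodule.mem_map_equiv _).trans (by simp) |>.symm
  have h1 := Submodule.finrank_lt_finrank_of_lt h
  rw [this, LinearEquiv.finrank_map_eq] at h1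
  exact h1.false

theorem of_mem [FiniteDimensional F V] (h : ∀ v ∈ Y, g'.1 v ∈ Y → g.1 v ∈ Y) {v : V} (h1 : v ∈ Y)
    (h2 : g.1 v ∈ Y) (h3 : g'.1 v ∉ Y) : ¬ Rl (St B Y) g g' :=
  of_lt (SetLike.lt_iff_le_and_exists.2 ⟨fun v hv => mem_D.2 ⟨hv.1, h v hv.1 hv.2⟩, v,
    mem_D.2 ⟨h1, h2⟩, fun h => h3 (mem_D.1 h).2⟩)

theorem of_deg {v : V} (h0 : v ≠ 0) (h1 : v ∈ D Y g) (h2 : ∀ u ∈ D Y g, B v u = 0)
    (h : ∀ v ∈ D Y g', (∀ u ∈ D Y g', B v u = 0) → v = 0) : ¬ Rl (St B Y) g g' := fun r => by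
  obtain ⟨k, hk⟩ := r.map
  obtain ⟨v, rfl⟩ := k.1.surjective v
  exact h0 (by rw [h v ((hk v).2 h1) fun u hu => (k.2.1 v u).symm.trans (h2 _ ((hk u).1 hu)),
    map_zero])

theorem of_perp (h : ∀ y ∈ Y, ∀ v ∈ Y, B y (g.1 v) = 0) {y : V} (hy : y ∈ Y)
    (h1 : B y (g'.1 y) ≠ 0) : ¬ Rl (St B Y) g g' := by
  rintro ⟨k, hk, k', hk', rfl⟩
  obtain ⟨u, hu⟩ := k.1.surjective y
  refine h1 ?_
  show B y (k.1 (g.1 (k'.1 y))) = 0
  rw [show B y = B (k.1 u) by rw [hu], k.2.1]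
  exact h u ((hk u).1 (hu ▸ hy)) _ ((hk' y).2 hy)

variable [Fintype F] (h : Hm σ B q)
include h

theorem tv {x : V} {c : F} (hx : B x x = 0) (hc : σ c = -c) :
    ∃ g : GG B, ∀ v, g.1 v = v + (c * B x v) • x := by
  obtain ⟨g, hg⟩ := h.exists_tv hx hc
  exact ⟨g, fun v => by rw [hg, ← smul_smul]; rfl⟩

theorem hyp (nd : Y ⊓ Pp B Y = ⊥) (hY : 2 ≤ finrank F Y) :
    ∃ a ∈ Y, ∃ b ∈ Y, B a a = 0 ∧ B b b = 0 ∧ B a b = 1 := by
  obtain ⟨a, ha, a0, aa⟩ := h.ex_iso Y hY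
  obtain ⟨y, hy, e⟩ : ∃ y ∈ Y, B a y = 1 := by
    by_contra hn
    refine a0 ((Submodule.eq_bot_iff _).1 nd a ⟨ha, fun y hy => h.refl (by_contra fun h0 => ?_)⟩)
    exact hn ⟨_, Y.smul_mem (B a y)⁻¹ hy, by rw [map_smul]; exact inv_mul_cancel₀ h0⟩
  obtain ⟨t, ht⟩ := h.trace (h.symm y y).symm
  have e' : B y a = 1 := by rw [h.symm, e, map_one]
  refine ⟨a, ha, y - t • a, sub_mem hy (Y.smul_mem _ ha), aa, ?_, by simp [aa, e]⟩
  simp only [map_sub, map_smul, LinearMap.sub_apply, LinearMap.map_smulₛₗ, LinearMap.smul_apply,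
    aa, e, e', smul_eq_mul]
  linear_combination -ht

end R1

open R1

variable {F V : Type*} [Field F] [Fintype F] [AddCommGroup V] [Module F V] {σ : F →+* F}
  {B : V →ₛₗ[σ] V →ₗ[F] F} {q : ℕ} {K : Subgroup (V ≃ₗ[F] V)}

theorem red1 (h : Hm σ B q) {Y : Submodule F V} (ti : Y ≤ Pp B Y) (hY : 2 ≤ finrank F Y) :
    ¬ R4 (St B Y) := by
  have := h.fd
  obtain ⟨z, li, z1, z2, z0, zz⟩ : ∃ z : Fin 3 → V, LinearIndependent F z ∧ z 1 ∈ Y ∧ z 2 ∈ Y ∧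
      z 0 ∈ Pp B Y ∧ B (z 0) (z 0) = 0 := by
    rcases hY.eq_or_lt with e | e
    · obtain ⟨z, li⟩ := exists_linearIndependent_of_le_finrank hY
      obtain ⟨x, x1, x2, x3⟩ := h.new Y (by have := h.dim; omega)
      refine ⟨Fin.cons x (Y.subtype ∘ z), (li.map' _ Y.ker_subtype).finCons fun hx => x1 ?_,
        (z 0).2, (z 1).2, x3, x2⟩
      exact Submodule.span_le.2 (by rintro _ ⟨i, rfl⟩; exact (z i).2) hx
    · obtain ⟨z, li⟩ := exists_linearIndependent_of_le_finrank (n := 3) e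
      exact ⟨_, li.map' _ Y.ker_subtype, (z 1).2, (z 2).2, ti (z 0).2, ti (z 0).2 _ (z 0).2⟩
  have p : ∀ i, ∀ v ∈ Y, B (z i) v = 0 := fun i v hv => by
    fin_cases i
    exacts [h.refl (z0 v hv), ti hv _ z1, ti hv _ z2]
  obtain ⟨f, zf, ff⟩ := h.dual z li fun i j => by
    fin_cases j
    · fin_cases i
      exacts [zz, z0 _ z1, z0 _ z2]
    exacts [p i _ z1, p i _ z2]
  have fz : ∀ i j, B (f i) (z j) = if j = i then 1 else 0 := fun i j => by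
    rw [h.symm, zf]; split_ifs <;> simp
  obtain ⟨c, c0, hc⟩ := h.ex_skew
  choose t ht using fun i => tv h (ff i i) hc
  have m1 : ∀ v ∈ Y, (t 1).1 v ∈ Y ↔ B (f 1) v = 0 := fun v hv => by
    refine ⟨fun e => ?_, fun e => by simpa [ht, e] using hv⟩
    simpa [ht, p 1 v hv, zf, c0] using p 1 _ e
  have m2 : ∀ v ∈ Y, (t 1 * t 2).1 v ∈ Y ↔ B (f 1) v = 0 ∧ B (f 2) v = 0 := fun v hv => by
    refine ⟨fun e => ⟨?_, ?_⟩, fun e => by simpa [ht, e] using hv⟩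
    · simpa [ht, p 1 v hv, zf, ff, c0] using p 1 _ e
    · simpa [ht, p 2 v hv, zf, ff, c0] using p 2 _ e
  have r1 : ¬ Rl (St B Y) 1 (t 1) := of_mem (fun v hv _ => hv) z1 z1 (by simp [m1 _ z1, fz])
  have r2 : ¬ Rl (St B Y) 1 (t 1 * t 2) := of_mem (fun v hv _ => hv) z1 z1 (by
    rw [m2 _ z1]; simp [fz])
  have r3 : ¬ Rl (St B Y) (t 1) (t 1 * t 2) :=
    of_mem (fun v hv e => (m1 v hv).2 ((m2 v hv).1 e).1) z2 (by simp [m1 _ z2, fz]) (by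
      rw [m2 _ z2]; simp [fz])
  by_cases hz : z 0 ∈ Y
  · have m3 : ∀ v ∈ Y, (t 1 * t 2 * t 0).1 v ∈ Y →
        (B (f 1) v = 0 ∧ B (f 2) v = 0) ∧ B (f 0) v = 0 := fun v hv e => by
      refine ⟨⟨?_, ?_⟩, ?_⟩
      · simpa [ht, p 1 v hv, zf, ff, c0] using p 1 _ e
      · simpa [ht, p 2 v hv, zf, ff, c0] using p 2 _ e
      · simpa [ht, p 0 v hv, zf, ff, c0] using p 0 _ e
    have m4 : (t 1 * t 2 * t 0).1 (z 0) ∉ Y := fun e => by simpa [fz] using (m3 _ hz e).2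
    exact not_r4 r1 r2 (of_mem (fun v hv _ => hv) hz hz m4) r3
      (of_mem (fun v hv e => (m1 v hv).2 (m3 v hv e).1.1) hz (by simp [m1 _ hz, fz]) m4)
      (of_mem (fun v hv e => (m2 v hv).2 (m3 v hv e).1) hz (by rw [m2 _ hz]; simp [fz]) m4)
  · obtain ⟨g, hg⟩ := h.exists_sg (x := z 0) (y := f 1) (c := 0) zz (by simp [zf]) (by simp [ff])
    have m3 : ∀ v ∈ Y, g.1 v = v + B (f 1) v • z 0 := fun v hv => by
      simp [hg, Pm, E, p 0 v hv]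
    have m4 : ∀ y ∈ Y, ∀ v ∈ Y, B y (g.1 v) = 0 := fun y hy v hv => by
      simp [m3 v hv, ti hv y hy, z0 y hy]
    refine not_r4 r1 r2 (of_mem (g' := g) (fun v hv _ => hv) z1 z1 fun e => hz ?_) r3
      (fun r => of_perp m4 z1 ?_ r.symm) fun r => of_perp m4 z1 ?_ r.symm
    · simpa [m3 _ z1, fz, Y.add_mem_iff_right z1] using e
    · simp [ht, p 1 _ z1, zf, fz, c0]
    · simp [ht, p 1 _ z1, zf, fz, c0]

theorem red2 (h : Hm σ B q) {Y : Submodule F V} (nd : Y ⊓ Pp B Y = ⊥) (hY : 2 ≤ finrank F Y)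
    (hY' : 2 ≤ finrank F (Pp B Y)) : ¬ R4 (St B Y) := by
  have := h.fd
  obtain ⟨a, ha, a', ha', aa, a'a', aa'⟩ := hyp h nd hY
  obtain ⟨b, hb, b', hb', bb, b'b', bb'⟩ := hyp h (Y := Pp B Y) (by rw [h.Pp_Pp, inf_comm, nd]) hY'
  have a'a : B a' a = 1 := by rw [h.symm, aa', map_one]
  have b'b : B b' b = 1 := by rw [h.symm, bb', map_one]
  have p : ∀ v ∈ Y, B b v = 0 ∧ B b' v = 0 ∧ B v b = 0 ∧ B v b' = 0 := fun v hv =>
    ⟨h.refl (hb v hv), h.refl (hb' v hv), hb v hv, hb' v hv⟩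
  obtain ⟨c, c0, hc⟩ := h.ex_skew
  obtain ⟨s, hs⟩ := h.trace (map_one σ)
  have pa := p a ha
  have pa' := p a' ha'
  obtain ⟨t, ht⟩ := tv h (x := a + b) (by simp [aa, bb, pa]) hc
  obtain ⟨t', ht'⟩ := tv h (x := a' - b') (by simp [a'a', b'b', pa']) hc
  obtain ⟨u, hu⟩ := tv h (x := s • (a + b) + (a' - b')) (by
    simp [aa, bb, a'a', b'b', aa', a'a, bb', b'b, pa, pa']) hc
  have m1 : ∀ v ∈ Y, t.1 v ∈ Y ↔ B a v = 0 := fun v hv => by
    refine ⟨fun e => ?_, fun e => by simpa [ht, e, p v hv] using hv⟩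
    simpa [ht, p v hv, pa, b'b, c0] using (p _ e).2.1
  have m2 : ∀ v ∈ Y, u.1 v ∈ Y ↔ σ s * B a v + B a' v = 0 := fun v hv => by
    refine ⟨fun e => ?_, fun e => by simpa [hu, e, p v hv] using hv⟩
    simpa [hu, p v hv, pa, pa', bb, bb', c0] using (p _ e).1
  have m3 : ∀ v ∈ Y, (t * t').1 v ∈ Y → B a v = 0 ∧ B a' v = 0 := fun v hv e => by
    refine ⟨?_, ?_⟩
    · simpa [ht, ht', p v hv, pa, pa', aa', bb', b'b, b'b', c0] using (p _ e).2.1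
    · simpa [ht, ht', p v hv, pa, pa', aa', bb', bb, c0] using (p _ e).1
  have hw : s • a + a' ∈ Y := add_mem (Y.smul_mem _ ha) ha'
  have w1 : σ s * B a (s • a + a') + B a' (s • a + a') = 1 := by
    simp [aa, aa', a'a, a'a', add_comm, hs]
  refine not_r4 (a := 1) (b := t) (c := u) (d := t * t') (of_mem (fun v hv _ => hv) ha' ha' ?_)
    (of_mem (fun v hv _ => hv) hw hw ?_) (of_mem (fun v hv _ => hv) ha ha fun e => ?_)
    (of_deg (v := a) ?_ ⟨ha, (m1 a ha).2 aa⟩ (fun v hv => (m1 v hv.1).1 hv.2) fun v hv e => ?_)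
    (of_mem (fun v hv e => (m1 v hv).2 (m3 v hv e).1) ha ((m1 a ha).2 aa) fun e => ?_)
    (of_mem (v := a' - σ s • a) (fun v hv e => (m2 v hv).2 (by simp [m3 v hv e]))
      (sub_mem ha' (Y.smul_mem _ ha)) ?_ fun e => ?_)
  · simp [m1 _ ha', aa']
  · rw [m2 _ hw, w1]; exact one_ne_zero
  · simpa [a'a] using (m3 _ ha e).2
  · rintro rfl; simp at aa'
  · refine (Submodule.eq_bot_iff _).1 nd v ⟨hv.1, fun y hy => h.refl ?_⟩
    have h1 : B v (s • a + a') = 0 := h.refl (by simpa using (m2 v hv.1).1 hv.2)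
    have hy' := sub_mem hy (Y.smul_mem (σ s * B a y + B a' y) hw)
    have := e _ ⟨hy', (m2 _ hy').2 (by
      rw [map_sub, map_sub, map_smul, map_smul, smul_eq_mul, smul_eq_mul]
      linear_combination -(σ s * B a y + B a' y) * w1)⟩
    rwa [map_sub, map_smul, h1, smul_zero, sub_zero] at this
  · simpa [a'a] using (m3 _ ha e).2
  · rw [m2 _ (sub_mem ha' (Y.smul_mem _ ha))]
    simp [aa, aa', a'a, a'a']
  · simpa [aa, aa'] using (m3 _ (sub_mem ha' (Y.smul_mem _ ha)) e).1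

end CF.Rq
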