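import Cfsg.Agent.Rq.TA1
import Cfsg.Agent.Rq.P1
import Cfsg.Agent.Rq.WT

/-! Rank 3 actions of unitary groups: coordinates on the diagonal torus. -/

set_option autoImplicit false
open MulAction Module

namespace CF.Rq

variable {F V : Type*} [Field F] [Fintype F] [AddCommGroup V] [Module F V] {σ : F →+* F}
  {B : V →ₛₗ[σ] V →ₗ[F] F} {q : ℕ} {n : ℕ} {e : ℕ → V} {Ω : Type*} [MulAction (GG B) Ω]

namespace XC

/-- the `j`-th diagonal entry -/
noncomputable def c0 (j : ℕ) (t : Tt B n e) : Fˣ := if h : j < n then (t.2 j h).choose else 1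

omit [Fintype F] in
theorem c0_spec {j : ℕ} (hj : j < n) (t : Tt B n e) : t.1.1 (e j) = (c0 j t : F) • e j := by
  rw [c0, dif_pos hj]; exact (t.2 j hj).choose_spec

omit [Fintype F] in
theorem c0_eq (b : Fb B n e) {j : ℕ} (hj : j < n) {t : Tt B n e} {c : Fˣ}
    (k : t.1.1 (e j) = (c : F) • e j) : c0 j t = c :=
  Units.ext (smul_left_injective F (b.ne hj) ((c0_spec hj t).symm.trans k))

/-- the `j`-th diagonal entry, as a homomorphism -/
noncomputable def co (b : Fb B n e) (j : ℕ) : Tt B n e →* Fˣ :=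
  MonoidHom.mk' (c0 j) fun s t => by
    by_cases hj : j < n
    · refine c0_eq b hj ?_
      simp [c0_spec hj, smul_smul, mul_comm]
    · simp [c0, hj]

omit [Fintype F] in
theorem co_spec (b : Fb B n e) {j : ℕ} (hj : j < n) (t : Tt B n e) :
    t.1.1 (e j) = (co b j t : F) • e j := c0_spec hj t

omit [Fintype F] in
theorem co_eq (b : Fb B n e) {j : ℕ} (hj : j < n) {t : Tt B n e} {c : Fˣ}
    (k : t.1.1 (e j) = (c : F) • e j) : co b j t = c := c0_eq b hj k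

omit [Fintype F] in
theorem co_conj (b : Fb B n e) {i a : ℕ} (hi : i < n) (ha : a < n) {ν : GG B} {c : Fˣ}
    (k : ν.1 (e i) = (c : F) • e a) {s t : Tt B n e} (hs : s.1 = ν⁻¹ * t * ν) :
    co b i s = co b a t := by
  refine co_eq b hi (ν.1.injective ?_)
  rw [← LinearEquiv.mul_apply, ← Subgroup.coe_mul, hs, mul_assoc, mul_inv_cancel_left,
    Subgroup.coe_mul, LinearEquiv.mul_apply, k, map_smul, map_smul, co_spec b ha, k, smul_comm]

theorem co_dg (b : Fb B n e) {t : GG B} {τ : ℕ → Fˣ} (ht : Dg B n e t τ) {i : ℕ}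
    (hi : i < n / 2) : co b i ⟨t, ht.mem⟩ = τ i := co_eq b (by omega) ((ht i).1 (by omega)).1

theorem co_mid (b : Fb B n e) {t : GG B} {τ : ℕ → Fˣ} (ht : Dg B n e t τ) {i : ℕ}
    (hi : 2 * i + 1 = n) : co b i ⟨t, ht.mem⟩ = 1 :=
  co_eq b (by omega) (by simpa using (ht i).2 hi)

theorem co_rev (h : Hm σ B q) (b : Fb B n e) {i : ℕ} (hi : i < n) (t : Tt B n e) :
    (co b (n - 1 - i) t : F) * σ (co b i t) = 1 :=
  b.T_rev h (i := n - 1 - i) (by omega) (co_spec b (by omega) t)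
    (by rw [show n - 1 - (n - 1 - i) = i by omega]; exact co_spec b hi t)

theorem dg_of (h : Hm σ B q) (b : Fb B n e) (t : Tt B n e)
    (k : ∀ i, 2 * i + 1 = n → co b i t = 1) : Dg B n e t.1 fun i => co b i t := fun i =>
  ⟨fun hi => ⟨co_spec b (by omega) t, by
    rw [co_spec b (by omega), eq_inv_of_mul_eq_one_left (co_rev h b (by omega) t)]⟩,
    fun hi => by rw [co_spec b (by omega), k i hi]; simp⟩

omit [Fintype F] in
theorem nb (b : Fb B n e) {i j a a' : ℕ} (hi : i < n) (hj : j < n) (ha : a < n) (ha' : a' < n)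
    {ν : GG B} {c d : Fˣ} (k : ν.1 (e i) = (c : F) • e a) (k' : ν.1 (e j) = (d : F) • e a') :
    a + a' + 1 = n ↔ i + j + 1 = n := by
  have := ν.2.1 (e i) (e j)
  rw [k, k', map_smul, LinearMap.map_smulₛₗ₂, b.gram _ ha _ ha', b.gram _ hi _ hj] at this
  split_ifs at this with h1 h2 h2 <;> simp_all

/-- keeps every orbit of the unipotent group -/
def RR (b : Fb B n e) (Ω : Type*) [MulAction (GG B) Ω] (h : Hm σ B q) : Subgroup (Tt B n e) :=
  have := h.finG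
  { carrier := {t | ∀ ω : Ω, Tw (Uu B n e) ω t.1}
    mul_mem' := fun {s _} hs ht ω => Tw.mul (b.sp h) s.2 (hs ω) (ht ω)
    one_mem' := fun _ => ⟨1, one_mem _, rfl⟩
    inv_mem' := fun {s} hs ω => Tw.inv (b.sp h) s.2 (hs ω) }

theorem rr_of (h : Hm σ B q) (b : Fb B n e) (bt : Btr Ω (Uu B n e) (Tt B n e)) {ω : Ω}
    {t : Tt B n e} (k : Tw (Uu B n e) ω t.1) : t ∈ RR b Ω h := fun ω' => by
  have := h.finG
  obtain ⟨u, hu, s, hs, rfl⟩ := bt ω ω'
  exact (Tw.smul (b.sp h) t.2 hu hs).2 k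

theorem rr_conj (h : Hm σ B q) (b : Fb B n e) (bt : Btr Ω (Uu B n e) (Tt B n e))
    {s t : Tt B n e} (k : t ∈ RR b Ω h) {ν : GG B} (hs : s.1 = ν⁻¹ * t * ν) :
    s ∈ RR b Ω h := fun ω => by
  obtain ⟨u, -, hu⟩ := b.tf h ω
  refine rr_of h b bt (ω := ν⁻¹ • u • ω) ⟨1, one_mem _, ?_⟩ ω
  rw [hs, mul_smul, mul_smul, smul_inv_smul, hu _ t.2 (k _), one_smul]

theorem sw (h : Hm σ B q) (b : Fb B n e) (bt : Btr Ω (Uu B n e) (Tt B n e)) {x y : ℕ}
    (hx : x < n / 2) (hy : y < n / 2) {t : Tt B n e} (k : t ∈ RR b Ω h) : ∃ s ∈ RR b Ω h,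
      (∀ i < n / 2, co b i s = co b (Equiv.swap x y i) t) ∧
      ∀ i, 2 * i + 1 = n → co b i s = co b i t := by
  obtain ⟨ν, hν, k1⟩ := b.mon h (fun i => if i = x then y else if i = y then x else
    if i = n - 1 - x then n - 1 - y else if i = n - 1 - y then n - 1 - x else i)
    (fun i hi => by split_ifs <;> omega) (fun i hi => by split_ifs <;> omega)
    (fun i hi => by split_ifs <;> omega)
  refine ⟨⟨_, (b.sp h).nT ν hν t t.2⟩, rr_conj h b bt k rfl, fun i hi => ?_, fun i hi => ?_⟩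
  · obtain ⟨c, hc⟩ := k1 i (by omega)
    rw [co_conj b (by omega) (by split_ifs <;> omega) hc rfl, Equiv.swap_apply_def]
    congr 2
    split_ifs <;> omega
  · obtain ⟨c, hc⟩ := k1 i (by omega)
    rw [co_conj b (by omega) (by split_ifs <;> omega) hc rfl]
    congr 2
    split_ifs <;> omega

theorem av_iff (h : Hm σ B q) (b : Fb B n e) {τ : ℕ → Fˣ} : Av B n e Ω τ ↔ ∃ t ∈ RR b Ω h,
    (∀ i < n / 2, co b i t = τ i) ∧ ∀ i, 2 * i + 1 = n → co b i t = 1 :=
  ⟨fun ⟨t, h1, h2⟩ => ⟨⟨t, h1.mem⟩, h2, fun _ => co_dg b h1, fun _ => co_mid b h1⟩,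
    fun ⟨t, h1, h2, h3⟩ => ⟨t, (dg_of h b t h3).congr fun i hi => h2 i (by omega), h1⟩⟩

end XC

end CF.Rq
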